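import Cfsg.Agent.Blocks.CyclicExc.Local
import Cfsg.Agent.Blocks.CyclicExc.Vectors
import Cfsg.Agent.Blocks.CyclicRank.Main
import Cfsg.Agent.Blocks.ContribMatrix
import Cfsg.Agent.Clifford.ExtCriteria

/-!
# The columns of a block with cyclic defect group
-/

set_option autoImplicit false
set_option linter.unusedSectionVars false
set_option linter.style.haveILetI false

namespace CfsgLib.CyclicExc

open Cfsg CfsgLib CfsgLib.Blocks CfsgLib.CharBasics CfsgLib.PairAlg CfsgLib.NilBlock CfsgLib.Star CfsgLib.BrauerFeit Polynomial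
open scoped ComplexConjugate

attribute [local instance] CfsgLib.Blocks.residueField CfsgLib.Blocks.residue_charP

universe u

variable {p : ℕ} [hp : Fact p.Prime] {G : Type u} [Group G] [Fintype G]

noncomputable local instance instFintypeSubgroupCyclicExcData (K : Subgroup G) : Fintype K := Fintype.ofFinite K

section Powers

variable {P : Subgroup G} {a : ℕ} {w : G} (hwo : orderOf w = p ^ a) (hwP : Subgroup.zpowers w = P)

/-- The powers of the generator. -/
def pw (w : G) (s : ZMod (p ^ a)) : G := w ^ s.val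

include hwo in
theorem pw_natCast (j : ℕ) : pw w (j : ZMod (p ^ a)) = w ^ j := by
  rw [pw, ZMod.val_natCast, ← hwo, pow_mod_orderOf]

include hwo in
theorem pw_zero : pw w (0 : ZMod (p ^ a)) = 1 := by
  have h := pw_natCast hwo 0
  simpa using h

include hwo in
theorem pw_inj {s t : ZMod (p ^ a)} (h : pw w s = pw w t) : s = t := by
  refine ZMod.val_injective _ ?_
  have := pow_eq_pow_iff_modEq.1 h
  rw [hwo] at this
  exact this.eq_of_lt_of_lt (ZMod.val_lt s) (ZMod.val_lt t)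

include hwo in
theorem pw_ne {s : ZMod (p ^ a)} (hs : s ≠ 0) : pw w s ≠ 1 := fun h => hs (pw_inj hwo (h.trans (pw_zero hwo).symm))

include hwo in
theorem pw_mul (r s : ZMod (p ^ a)) : pw w (r * s) = (pw w r) ^ s.val := by
  rw [pw, pw, ← pow_mul, ZMod.val_mul]
  exact (congrArg (fun m => w ^ (r.val * s.val % m)) hwo).symm.trans (pow_mod_orderOf w _)

include hwo in
theorem pw_add (r s : ZMod (p ^ a)) : pw w (r + s) = pw w r * pw w s := by
  rw [pw, pw, pw, ← pow_add, ZMod.val_add]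
  exact (congrArg (fun m => w ^ ((r.val + s.val) % m)) hwo).symm.trans (pow_mod_orderOf w _)

include hwP in
theorem pw_mem (s : ZMod (p ^ a)) : pw w s ∈ P := hwP ▸ Subgroup.pow_mem _ (Subgroup.mem_zpowers w) _

include hwo hwP in
theorem exists_pw {u : G} (hu : u ∈ P) : ∃ s : ZMod (p ^ a), pw w s = u := by
  rw [← hwP] at hu
  obtain ⟨k, hk⟩ := Submonoid.mem_powers_iff _ _ |>.1 (mem_powers_iff_mem_zpowers.2 hu)
  exact ⟨(k : ZMod (p ^ a)), (pw_natCast hwo k).trans hk⟩

include hwo hwP in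
theorem exists_linear (t : ZMod (p ^ a)) :
    ∃ θ : IrrCharacter P, (θ : P → ℂ) 1 = 1 ∧ ∀ s, extConj θ (pw w s) = ee (p ^ a) (t * s) := by
  choose log hlog using fun u : P => exists_pw hwo hwP u.2
  have hadd : ∀ x y : P, log (x * y) = log x + log y := fun x y => pw_inj hwo (by
    rw [hlog, pw_add hwo, hlog, hlog, Subgroup.coe_mul])
  have h1 : log 1 = 0 := pw_inj hwo (by rw [hlog, pw_zero hwo]; rfl)
  let f : P →* ℂ :=
    { toFun := fun u => ee (p ^ a) (-(t * log u))
      map_one' := by rw [h1, mul_zero, neg_zero, AddChar.map_zero_eq_one]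
      map_mul' := fun x y => by rw [hadd, mul_add, neg_add, AddChar.map_add_eq_mul] }
  refine ⟨⟨fun u => f u, CfsgLib.Clifford.isIrrCharacter_of_hom f⟩, f.map_one, fun s => ?_⟩
  rw [extConj, dif_pos (pw_mem hwP s)]
  show conj (ee (p ^ a) (-(t * log ⟨pw w s, _⟩))) = _
  rw [conj_ee, neg_neg, pw_inj hwo (hlog ⟨pw w s, pw_mem hwP s⟩)]

include hwo hwP in
theorem sum_pw {A : Type*} [AddCommMonoid A] (f : G → A) [DecidablePred fun u : G => u ∈ P ∧ u ≠ 1] :
    ∑ s : ZMod (p ^ a), (if s = 0 then 0 else f (pw w s)) =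
      ∑ u ∈ Finset.univ.filter (fun u : G => u ∈ P ∧ u ≠ 1), f u := by
  classical
  rw [Finset.sum_congr rfl (fun s _ => (ite_not (s = 0) _ _).symm), ← Finset.sum_filter]
  refine Finset.sum_bij (fun (s : ZMod (p ^ a)) (_ : s ∈ Finset.univ.filter fun s => s ≠ 0) => pw w s)
    (fun s hs => Finset.mem_filter.2 ⟨Finset.mem_univ _, pw_mem hwP s, pw_ne hwo (Finset.mem_filter.1 hs).2⟩)
    (fun s _ t _ h => pw_inj hwo h) (fun u hu => ?_) fun _ _ => rfl
  obtain ⟨-, huP, hu1⟩ := Finset.mem_filter.1 hu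
  obtain ⟨s, rfl⟩ := exists_pw hwo hwP huP
  exact ⟨s, Finset.mem_filter.2 ⟨Finset.mem_univ _, fun h => hu1 (by rw [h, pw_zero hwo])⟩, rfl⟩

include hwo in
theorem orderOf_layer {i : ℕ} (hi : i ≤ a) : orderOf (w ^ p ^ i) = p ^ (a - i) := by
  rw [orderOf_pow_of_dvd (pow_ne_zero _ hp.out.ne_zero) (hwo ▸ Nat.pow_dvd_pow p hi), hwo,
    Nat.pow_div hi hp.out.pos]

end Powers

/-- The conjugate of a value at a root of unity. -/
theorem conj_aeval_root {o : ℕ} {x : ℂ} (ho : o ≠ 0) (hx : x ^ o = 1) (Q : ℤ[X]) :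
    conj (aeval x Q) = aeval x (Q.comp (X ^ (o - 1))) := by
  have h : conj x = x ^ (o - 1) := by
    rw [← Complex.inv_eq_conj (Complex.norm_eq_one_of_pow_eq_one hx ho)]
    refine inv_eq_of_mul_eq_one_right ?_
    rw [← pow_succ', Nat.sub_add_cancel (Nat.one_le_iff_ne_zero.2 ho), hx]
  rw [aeval_comp, map_pow, aeval_X, CfsgLib.Blocks.conj_aeval, h]

/-- A rational algebraic integer. -/
theorem exists_int_of_mul_eq {x : ℂ} (hx : IsIntegral ℤ x) {k : ℕ} (hk : k ≠ 0) {z : ℤ} (h : (k : ℂ) * x = (z : ℂ)) :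
    ∃ m : ℤ, x = (m : ℂ) := by
  have e : x = algebraMap ℚ ℂ ((z : ℚ) / k) := by
    rw [map_div₀, map_intCast, map_natCast, ← h, mul_div_cancel_left₀ _ (Nat.cast_ne_zero.2 hk)]
  rw [e] at hx ⊢
  obtain ⟨m, hm⟩ := IsIntegrallyClosed.isIntegral_iff.mp ((isIntegral_algebraMap_iff (algebraMap ℚ ℂ).injective).1 hx)
  exact ⟨m, by rw [← hm]; simp⟩

theorem isIntegral_aeval {x : ℂ} (hx : IsIntegral ℤ x) (Q : ℤ[X]) : IsIntegral ℤ (aeval x Q) := by
  induction Q using Polynomial.induction_on' with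
  | add p q hp hq => rw [map_add]; exact hp.add hq
  | monomial n c => rw [aeval_monomial]; exact isIntegral_algebraMap.mul (hx.pow n)

variable {M : Ideal AlgInt} (hM : IsPModular p M) {B : Set (IrrCharacter G)} {P : Subgroup G}
  {c : Set (IrrCharacter (Subgroup.centralizer (P : Set G)))} (hmax : IsMaximalBrauerPair p M B P c)
  (hB : IsPBlock M B) (hPD : IsDefectGroup p M B P)
  (hc : IsInducedBlock M (Subgroup.centralizer (P : Set G)) c B) (hab : ∀ x ∈ P, ∀ y ∈ P, x * y = y * x)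
  (hfree : ∀ g ∈ stab P (bc hM P c), ∀ x ∈ P, x ≠ 1 → g * x * g⁻¹ = x → g ∈ Subgroup.centralizer (P : Set G))
include hM hmax hB hPD hc hab hfree

set_option maxHeartbeats 1600000 in
/-- The columns. -/
theorem exists_cols {a e : ℕ} (ha : 1 ≤ a) {w : G} (hwo : orderOf w = p ^ a) (hwP : Subgroup.zpowers w = P)
    (he : (Subgroup.centralizer (P : Set G)).relIndex (stab P (bc hM P c)) = e) (hdvd : e ∣ p - 1)
    (hl : blockRank p B = e) [Fintype B] [DecidableEq B] :
    ∃ D : PreCols p a e B, (∀ χ ψ : B, D.Rm χ ψ =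
      classInner (pRegularPart p ((χ : IrrCharacter G) : G → ℂ)) ((ψ : IrrCharacter G) : G → ℂ)) ∧
      (∀ s, s ≠ 0 → ∀ χ ψ : B, D.N s χ ψ =
        NN hM hmax (pw w s) ((χ : IrrCharacter G) : G → ℂ) ((ψ : IrrCharacter G) : G → ℂ)) ∧
      ∃ χ₀ : B, ∀ s, s ≠ 0 → D.N s χ₀ χ₀ = 1 := by
  classical
  haveI : Fintype (IrrCharacter G) := @Fintype.ofFinite _ finite_irrCharacter
  have hP : Nat.card P = p ^ a := by rw [← hwP, Nat.card_zpowers, hwo]
  have he1 : 1 ≤ e := Nat.one_le_iff_ne_zero.2 (he ▸ Subgroup.index_ne_zero_of_finite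
    (H := (Subgroup.centralizer (P : Set G)).subgroupOf (stab P (bc hM P c))))
  set T := stab P (bc hM P c) with hTdef
  choose A hA1 hA2 using fun (u : G) (hu : u ∈ P) (hu1 : u ≠ 1) =>
    exists_deltaPoly hM hmax hB hPD hc hab hfree hu hu1
  have hcj : ∀ u ∈ P, u ≠ 1 → ∃ f : IrrCharacter G → ℂ, ∀ χ ψ : IrrCharacter G,
      NN hM hmax u (χ : G → ℂ) (ψ : G → ℂ) = f χ * conj (f ψ) := fun u hu hu1 =>
    ⟨fun χ => aeval (zetaRoot (orderOf u) ^ 1) (A u hu hu1 χ), fun χ ψ => by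
      have h := hA1 u hu hu1 1 (Nat.coprime_one_left _) χ ψ
      rwa [pow_one u] at h⟩
  choose f hf using hcj
  set N : ZMod (p ^ a) → B → B → ℂ := fun s χ ψ =>
    if s = 0 then 0 else NN hM hmax (pw w s) ((χ : IrrCharacter G) : G → ℂ) ((ψ : IrrCharacter G) : G → ℂ) with hN
  -- the exponents of the inertial quotient
  set R := Finset.univ.filter (fun r : ZMod (p ^ a) => ∃ t ∈ T, t * w * t⁻¹ = pw w r) with hR
  have hmemR : ∀ r, r ∈ R ↔ ∃ t ∈ T, t * w * t⁻¹ = pw w r := fun r => by simp [hR]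
  have hconj : ∀ {r : ZMod (p ^ a)} {t : G}, t * w * t⁻¹ = pw w r → ∀ s : ZMod (p ^ a),
      t * pw w s * t⁻¹ = pw w (r * s) := fun {r t} h s => by rw [pw_mul hwo, ← h, pw, conj_pow]
  have hcenw : ∀ g : G, g * w * g⁻¹ = w → g ∈ Subgroup.centralizer (P : Set G) := fun g hg => by
    rw [← hwP, centralizer_zpowers_eq]
    exact Subgroup.mem_centralizer_singleton_iff.2 (mul_inv_eq_iff_eq_mul.1 hg)
  have hTP : ∀ t ∈ T, t * w * t⁻¹ ∈ P := fun t ht => conj_mem_of_stab hM ht (hwP ▸ Subgroup.mem_zpowers w)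
  have hone : (1 : ZMod (p ^ a)) ∈ R := (hmemR 1).2 ⟨1, T.one_mem, by
    rw [← Nat.cast_one, pw_natCast hwo, pow_one, one_mul, inv_one, mul_one]⟩
  have hRcard : R.card = e := by
    set C' := (Subgroup.centralizer (P : Set G)).subgroupOf T with hC'
    choose ex hex using fun q : ↥T ⧸ C' => exists_pw hwo hwP (hTP _ q.out.2)
    have hin : Function.Injective ex := fun q q' h => by
      rw [← q.out_eq', ← q'.out_eq', QuotientGroup.eq]
      refine Subgroup.mem_subgroupOf.2 ?_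
      refine hcenw _ ?_
      push_cast
      have e1 : (q.out : G) * w * (q.out : G)⁻¹ = (q'.out : G) * w * (q'.out : G)⁻¹ := by rw [← hex, ← hex, h]
      calc (q.out : G)⁻¹ * q'.out * w * ((q.out : G)⁻¹ * q'.out)⁻¹
          = (q.out : G)⁻¹ * ((q'.out : G) * w * (q'.out : G)⁻¹) * q.out := by group
        _ = w := by rw [← e1]; group
    have him : R = (Finset.univ : Finset (↥T ⧸ C')).image ex := by
      ext r
      rw [hmemR, Finset.mem_image]
      constructor
      · rintro ⟨t, ht, htr⟩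
        refine ⟨((⟨t, ht⟩ : T) : ↥T ⧸ C'), Finset.mem_univ _, pw_inj hwo ?_⟩
        obtain ⟨⟨c₁, hc₁⟩, hout⟩ := QuotientGroup.mk_out_eq_mul C' (⟨t, ht⟩ : T)
        rw [hex, hout, ← htr, Subgroup.coe_mul]
        have hcw := Subgroup.mem_centralizer_iff.1 (Subgroup.mem_subgroupOf.1 hc₁) w (hwP ▸ Subgroup.mem_zpowers w)
        calc t * (c₁ : G) * w * (t * (c₁ : G))⁻¹ = t * ((c₁ : G) * w) * (c₁ : G)⁻¹ * t⁻¹ := by group
          _ = _ := by rw [← hcw]; group
      · rintro ⟨q, -, rfl⟩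
        exact ⟨q.out, q.out.2, (hex q).symm⟩
    rw [him, Finset.card_image_of_injective _ hin, Finset.card_univ, ← Nat.card_eq_fintype_card, ← he]
    exact (Subgroup.index_eq_card C').symm
  have hstab : ∀ r ∈ R, ∀ s, N (r * s) = N s := by
    intro r hr s
    obtain ⟨t, ht, htr⟩ := (hmemR r).1 hr
    funext χ ψ
    simp only [hN]
    by_cases hs : s = 0
    · simp [hs]
    have hrs : r * s ≠ 0 := fun h => by
      have h' := hconj htr s
      rw [h, pw_zero hwo, mul_inv_eq_one, mul_eq_left] at h'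
      exact pw_ne hwo hs h'
    rw [if_neg hs, if_neg hrs, ← hconj htr s, NN_stab hM hmax hab ht (pw_mem hwP s)]
  -- the layers
  have hlay : ∀ i, i < a → ∀ j ∈ coprimeResidues (p ^ (a - i)), ∀ (χ ψ : B),
      ((p ^ i * j : ℕ) : ZMod (p ^ a)) ≠ 0 ∧ ∀ (hu : w ^ p ^ i ∈ P) (hu1 : w ^ p ^ i ≠ 1),
      N ((p ^ i * j : ℕ) : ZMod (p ^ a)) χ ψ = aeval (zetaRoot (p ^ (a - i)) ^ j) (A _ hu hu1 χ) *
        conj (aeval (zetaRoot (p ^ (a - i)) ^ j) (A _ hu hu1 ψ)) := by
    intro i hi j hj χ ψ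
    have hjc : j.Coprime (p ^ (a - i)) := (Finset.mem_filter.1 hj).2
    have hord := orderOf_layer hwo hi.le
    have hpw : pw w ((p ^ i * j : ℕ) : ZMod (p ^ a)) = (w ^ p ^ i) ^ j := by rw [pw_natCast hwo, pow_mul]
    have hne : ((p ^ i * j : ℕ) : ZMod (p ^ a)) ≠ 0 := fun h => by
      rw [h, pw_zero hwo, eq_comm, ← orderOf_dvd_iff_pow_eq_one, hord] at hpw
      exact absurd (Nat.eq_one_of_dvd_coprimes hjc hpw dvd_rfl) (Nat.one_lt_pow (by omega) hp.out.one_lt).ne'
    refine ⟨hne, fun hu hu1 => ?_⟩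
    simp only [hN]
    rw [if_neg hne, hpw, hA1 _ hu hu1 j (hord ▸ hjc), hord]
  have hu : ∀ i : ℕ, w ^ p ^ i ∈ P := fun i => hwP ▸ Subgroup.pow_mem _ (Subgroup.mem_zpowers w) _
  have hu1 : ∀ i, i < a → w ^ p ^ i ≠ 1 := fun i hi h => by
    have h' := orderOf_layer hwo hi.le
    rw [h, orderOf_one] at h'
    exact (Nat.one_lt_pow (by omega) hp.out.one_lt).ne' h'.symm
  -- the integrality
  have hint : ∀ t χ ψ, ∃ z : ℤ, ∑ s, (ee (p ^ a) (t * s) - 1) * N s χ ψ = ((p ^ a : ℕ) : ℂ) * (z : ℂ) := by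
    intro t χ ψ
    have hL : ∀ i : Fin a, ∃ z : ℤ, ∑ j ∈ coprimeResidues (p ^ (a - i)),
        (ee (p ^ a) (t * ((p ^ (i : ℕ) * j : ℕ) : ZMod (p ^ a))) - 1) * N ((p ^ (i : ℕ) * j : ℕ) : ZMod (p ^ a)) χ ψ =
          (z : ℂ) := by
      intro i
      set A' := A _ (hu i) (hu1 i i.2)
      obtain ⟨z, hz⟩ := exists_int_sum_aeval hp.out (a - i)
        ((X ^ t.val - 1) * (A' χ * (A' ψ).comp (X ^ (p ^ (a - (i : ℕ)) - 1))))
      refine ⟨z, (Finset.sum_congr rfl fun j hj => ?_).trans hz⟩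
      have hroot : (zetaRoot (p ^ (a - (i : ℕ))) ^ j) ^ p ^ (a - (i : ℕ)) = 1 := by
        rw [← pow_mul, mul_comm, pow_mul, (zetaRoot_prim (pow_ne_zero _ hp.out.ne_zero)).pow_eq_one, one_pow]
      have e1 : ee (p ^ a) (t * ((p ^ (i : ℕ) * j : ℕ) : ZMod (p ^ a))) =
          (zetaRoot (p ^ (a - (i : ℕ))) ^ j) ^ t.val := by
        have e2 : t * ((p ^ (i : ℕ) * j : ℕ) : ZMod (p ^ a)) = ((t.val * (p ^ (i : ℕ) * j) : ℕ) : ZMod (p ^ a)) := by
          rw [Nat.cast_mul t.val, ZMod.natCast_zmod_val]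
        rw [e2, ee_natCast, ← zetaRoot_pow_div (pow_ne_zero a hp.out.ne_zero) (Nat.pow_dvd_pow p (Nat.sub_le a i)),
          Nat.pow_div (Nat.sub_le a i) hp.out.pos, Nat.sub_sub_self i.2.le, ← pow_mul, ← pow_mul]
        ring_nf
      rw [(hlay i i.2 j hj χ ψ).2 (hu i) (hu1 i i.2), conj_aeval_root (pow_ne_zero _ hp.out.ne_zero) hroot, e1,
        map_mul (aeval _), map_mul (aeval _), map_sub (aeval _), map_pow (aeval _), aeval_X, map_one (aeval _)]
    choose z hz using hL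
    set S := ∑ s, (ee (p ^ a) (t * s) - 1) * N s χ ψ with hS
    have hSz : S = ((∑ i, z i : ℤ) : ℂ) := by
      have hlayers := sum_layers hp.out a (fun s : ℕ =>
        (ee (p ^ a) (t * (s : ZMod (p ^ a))) - 1) * N (s : ZMod (p ^ a)) χ ψ)
      have hrange : ∑ s ∈ Finset.range (p ^ a), (ee (p ^ a) (t * (s : ZMod (p ^ a))) - 1) *
          N (s : ZMod (p ^ a)) χ ψ = S := by
        refine Finset.sum_bij (fun (s : ℕ) (_ : s ∈ Finset.range (p ^ a)) => (s : ZMod (p ^ a)))
          (fun _ _ => Finset.mem_univ _) (fun x hx y hy hxy => ?_)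
          (fun s _ => ⟨s.val, Finset.mem_range.2 (ZMod.val_lt s), by simp⟩) fun _ _ => rfl
        have := congrArg ZMod.val hxy
        rwa [ZMod.val_natCast_of_lt (Finset.mem_range.1 hx), ZMod.val_natCast_of_lt (Finset.mem_range.1 hy)] at this
      rw [hrange] at hlayers
      rw [hlayers, Finset.sum_range (f := fun i => ∑ j ∈ coprimeResidues (p ^ (a - i)), _)]
      rw [Finset.sum_congr rfl fun i _ => hz i]
      simp [hN]
    obtain ⟨θ, hθ1, hθ⟩ := exists_linear hwo hwP t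
    have hloc := memLocalRing_twist hM hmax hB hPD hc hab hfree θ hθ1 χ.2 (ψ : IrrCharacter G)
    rw [← sum_pw hwo hwP, hP] at hloc
    have hS' : ∑ s : ZMod (p ^ a), (if s = 0 then 0 else (extConj θ (pw w s) - 1) *
        NN hM hmax (pw w s) ((χ : IrrCharacter G) : G → ℂ) ((ψ : IrrCharacter G) : G → ℂ)) = S := by
      refine Finset.sum_congr rfl fun s _ => ?_
      simp only [hN, hθ]
      split_ifs <;> simp
    rw [hS', hSz, inv_mul_eq_div, Nat.cast_pow] at hloc
    obtain ⟨y, hy⟩ := dvd_of_memLocalRing_div hM a _ hloc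
    exact ⟨y, by rw [hSz, hy]; push_cast; ring⟩
  let D₀ : PreCols p a e B := {
    a_pos := ha
    e_one := he1
    R := R
    R_card := hRcard
    R_one := hone
    R_mul := fun r hr r' hr' => by
      obtain ⟨t, ht, htr⟩ := (hmemR r).1 hr
      obtain ⟨t', ht', htr'⟩ := (hmemR r').1 hr'
      refine (hmemR _).2 ⟨t * t', T.mul_mem ht ht', ?_⟩
      rw [← hconj htr r', ← htr']
      group
    R_free := fun r hr r' hr' s hs h => by
      obtain ⟨t, ht, htr⟩ := (hmemR r).1 hr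
      obtain ⟨t', ht', htr'⟩ := (hmemR r').1 hr'
      have e1 : t * pw w s * t⁻¹ = t' * pw w s * t'⁻¹ := by rw [hconj htr, hconj htr', h]
      have hfix : t'⁻¹ * t * pw w s * (t'⁻¹ * t)⁻¹ = pw w s := by
        calc t'⁻¹ * t * pw w s * (t'⁻¹ * t)⁻¹ = t'⁻¹ * (t * pw w s * t⁻¹) * t' := by group
          _ = _ := by rw [e1]; group
      have hC := Subgroup.mem_centralizer_iff.1
        (hfree _ (T.mul_mem (T.inv_mem ht') ht) _ (pw_mem hwP s) (pw_ne hwo hs) hfix) w
        (hwP ▸ Subgroup.mem_zpowers w)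
      refine pw_inj hwo ?_
      rw [← htr, ← htr']
      calc t * w * t⁻¹ = t' * ((t'⁻¹ * t) * w) * t⁻¹ := by group
        _ = _ := by rw [← hC]; group
    N := N
    N_zero := by funext χ ψ; simp [hN]
    N_conj := fun s χ ψ => by
      simp only [hN]
      split_ifs with hs
      · simp
      · rw [hf _ (pw_mem hwP s) (pw_ne hwo hs), hf _ (pw_mem hwP s) (pw_ne hwo hs), map_mul, Complex.conj_conj,
          mul_comm]
    N_stab := hstab
    rank1 := fun s ρ χ χ' ψ => by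
      simp only [hN]
      split_ifs with hs
      · simp
      · rw [hf _ (pw_mem hwP s) (pw_ne hwo hs), hf _ (pw_mem hwP s) (pw_ne hwo hs), hf _ (pw_mem hwP s) (pw_ne hwo hs),
          hf _ (pw_mem hwP s) (pw_ne hwo hs)]
        ring
    total := fun s hs => by
      simp only [hN, if_neg hs]
      rw [← hP, ← sum_NN_diag hM hmax hB hPD hc hab hfree (pw_mem hwP s) (pw_ne hwo hs)]
      exact (Finset.sum_subtype (Finset.univ.filter (· ∈ B)) (fun χ => by simp)
        (fun χ : IrrCharacter G => NN hM hmax (pw w s) (χ : G → ℂ) (χ : G → ℂ))).symm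
    N_ne := fun s hs χ => by
      simp only [hN, if_neg hs]
      exact NN_self_ne hM hmax hB hPD hc hab hfree (pw_mem hwP s) (pw_ne hwo hs) χ.2
    Rm := fun χ ψ => classInner (pRegularPart p ((χ : IrrCharacter G) : G → ℂ)) ((ψ : IrrCharacter G) : G → ℂ)
    delta := fun χ ψ => by
      have h := delta_NN hM hmax hB hPD hc hab hfree χ.2 (ψ : IrrCharacter G)
      rw [← hTdef, he, hP, ← sum_pw hwo hwP] at h
      refine Eq.trans ?_ h
      exact if_congr Subtype.coe_inj.symm rfl rfl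
    Rm_nonneg := fun v => by
      have h : ∑ χ : B, ∑ ψ : B, conj (v χ) *
          classInner (pRegularPart p ((χ : IrrCharacter G) : G → ℂ)) ((ψ : IrrCharacter G) : G → ℂ) * v ψ =
          (((Nat.card G : ℝ)⁻¹ * ∑ g : G, if IsPRegular p g then
            Complex.normSq (∑ χ : B, conj (v χ) * ((χ : IrrCharacter G) : G → ℂ) g) else 0 : ℝ) : ℂ) := by
        simp only [classInner_eq, Finset.mul_sum, Finset.sum_mul]
        push_cast
        rw [Finset.sum_congr rfl fun χ _ => Finset.sum_comm, Finset.sum_comm]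
        refine Finset.sum_congr rfl fun g _ => ?_
        simp only [pRegularPart]
        split_ifs with hg
        · rw [← Complex.mul_conj, map_sum, Finset.sum_mul_sum, Finset.mul_sum]
          refine Finset.sum_congr rfl fun χ _ => ?_
          rw [Finset.mul_sum]
          refine Finset.sum_congr rfl fun ψ _ => ?_
          rw [map_mul, Complex.conj_conj]
          ring
        · simp
      rw [h, Complex.ofReal_re]
      exact mul_nonneg (by positivity) (Finset.sum_nonneg fun g _ => by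
        split_ifs
        exacts [Complex.normSq_nonneg _, le_rfl])
    intA := hint }
  refine ⟨D₀, fun χ ψ => rfl, fun s hs χ ψ => if_neg hs, ?_⟩
  obtain rfl | he2 : e = 1 ∨ 2 ≤ e := by omega
  · -- the regular parts all agree
    have hk := CyclicRankOne.card_eq_add hM hmax hB hPD hc hab hfree
    rw [hl, he, hP] at hk
    have hcard : Nat.card B = p ^ a := by
      have : (Nat.card B : ℂ) = ((p ^ a : ℕ) : ℂ) := by rw [hk]; push_cast; ring
      exact_mod_cast this
    obtain ⟨φ, d, -, -, hmult, hsq⟩ := rank_one_structure hM hB hl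
    rw [← card_defectGroup hM hB hPD, hP, ← Finset.sum_filter] at hsq
    have h1 : ¬ p ∣ orderOf (1 : G) := by rw [orderOf_one]; exact hp.out.not_dvd_one
    have hd0 : ∀ χ ∈ B, d χ ≠ 0 := fun χ hχ h0 => apply_one_ne_zero χ.2 (by rw [hmult χ hχ 1 h1, h0, Nat.cast_zero, zero_mul])
    have hcB : (Finset.univ.filter (· ∈ B)).card = p ^ a := by
      rw [← hcard, Nat.card_eq_fintype_card, ← Fintype.card_subtype]
    have hone : ∀ χ ∈ B, d χ = 1 := by
      intro χ hχ
      by_contra hne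
      have hlt : ∑ ψ ∈ Finset.univ.filter (· ∈ B), 1 < ∑ ψ ∈ Finset.univ.filter (· ∈ B), d ψ ^ 2 := by
        refine Finset.sum_lt_sum (fun ψ hψ => Nat.one_le_pow _ _ (Nat.pos_of_ne_zero (hd0 ψ (Finset.mem_filter.1 hψ).2)))
          ⟨χ, Finset.mem_filter.2 ⟨Finset.mem_univ _, hχ⟩, Nat.one_lt_pow two_ne_zero (by have := hd0 χ hχ; omega)⟩
      rw [Finset.sum_const, smul_eq_mul, mul_one, hcB, hsq] at hlt
      omega
    obtain ⟨χ₁, hχ₁⟩ := IsPBlock.nonempty hM hB
    set c₀ := classInner (pRegularPart p (χ₁ : G → ℂ)) (pRegularPart p (χ₁ : G → ℂ)) with hc₀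
    have hreg : ∀ χ ∈ B, pRegularPart p (χ : G → ℂ) = pRegularPart p (χ₁ : G → ℂ) := fun χ hχ => by
      funext g
      rw [pRegularPart_apply, pRegularPart_apply]
      split_ifs with hg
      · rfl
      · rw [hmult χ hχ g hg, hmult χ₁ hχ₁ g hg, hone χ hχ, hone χ₁ hχ₁]
    have hRm : ∀ χ ψ : B, D₀.Rm χ ψ = c₀ := fun χ ψ => by
      show classInner (pRegularPart p ((χ : IrrCharacter G) : G → ℂ)) ((ψ : IrrCharacter G) : G → ℂ) = c₀
      have h : classInner (pRegularPart p ((χ : IrrCharacter G) : G → ℂ)) ((ψ : IrrCharacter G) : G → ℂ) =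
          classInner (pRegularPart p ((χ : IrrCharacter G) : G → ℂ))
            (pRegularPart p ((ψ : IrrCharacter G) : G → ℂ)) := by
        simp only [classInner_eq, pRegularPart_apply]
        congr 1
        exact Finset.sum_congr rfl fun g _ => by split_ifs <;> simp
      rw [h, hreg _ χ.2, hreg _ ψ.2]
    have hc0 : c₀ ≠ 0 := by
      rw [hc₀, classInner_eq, mul_ne_zero_iff]
      refine ⟨inv_ne_zero (Nat.cast_ne_zero.2 Nat.card_pos.ne'), ?_⟩
      simp only [Complex.mul_conj, ← Complex.ofReal_sum, ne_eq, Complex.ofReal_eq_zero]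
      refine fun h => apply_one_ne_zero χ₁.2 ?_
      have := (Finset.sum_eq_zero_iff_of_nonneg fun g _ => Complex.normSq_nonneg _).1 h 1 (Finset.mem_univ _)
      rwa [Complex.normSq_eq_zero, pRegularPart_apply, if_neg h1] at this
    exact ⟨⟨χ₁, hχ₁⟩, D₀.good_of_one rfl hc0 hRm _⟩
  have hep : e ≤ p - 1 := Nat.le_of_dvd (by have := hp.out.two_le; omega) hdvd
  have hodd : p ≠ 2 := by omega
  -- the fixed members
  obtain ⟨k₀, hk₀, hk₀1, hgen⟩ := BrauerChar.exists_generator hp.out hodd (n := Nat.card G) Nat.card_pos.ne'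
  set F := Finset.univ.filter (fun χ : B => ∀ g : G, ((χ : IrrCharacter G) : G → ℂ) (g ^ k₀) =
    ((χ : IrrCharacter G) : G → ℂ) g) with hF
  have hFcard : e ≤ F.card := by
    refine hl.symm.trans_le ((BrauerChar.blockRank_le_fixed hM hk₀ hk₀1 hB).trans ?_)
    rw [Nat.card_eq_fintype_card, ← Finset.card_univ]
    refine le_of_eq (Finset.card_bij (fun (χ : {χ : IrrCharacter G // χ ∈ B ∧ ∀ g : G, (χ : G → ℂ) (g ^ k₀) =
      (χ : G → ℂ) g}) _ => (⟨χ.1, χ.2.1⟩ : B)) (fun χ _ => Finset.mem_filter.2 ⟨Finset.mem_univ _, χ.2.2⟩)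
      (fun x _ y _ h => Subtype.ext (congrArg (fun z : B => (z : IrrCharacter G)) h))
      (fun χ hχ => ⟨⟨χ.1, χ.2, (Finset.mem_filter.1 hχ).2⟩, Finset.mem_univ _, rfl⟩))
  have hfixed : ∀ i (hi : i < a), ∀ χ ∈ F, ∃ z : ℤ, ∀ j ∈ coprimeResidues (p ^ (a - i)),
      aeval (zetaRoot (p ^ (a - i)) ^ j) (A _ (hu i) (hu1 i hi) (χ : IrrCharacter G)) = (z : ℂ) := by
    intro i hi χ hχ
    have hχfix := (Finset.mem_filter.1 hχ).2
    set o := p ^ (a - i) with ho
    set A' := A _ (hu i) (hu1 i hi) (χ : IrrCharacter G)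
    have hn := (Nat.card_pos (α := G)).ne'
    set n := Nat.card G
    have hoN : o ∣ p ^ n.factorization p := by
      refine Nat.pow_dvd_pow p ((Nat.sub_le a i).trans ?_)
      exact (hp.out.pow_dvd_iff_le_factorization hn).1 (hP ▸ Subgroup.card_subgroup_dvd_card P)
    have hconst : ∀ j ∈ coprimeResidues o, aeval (zetaRoot o ^ j) A' = aeval (zetaRoot o) A' := by
      intro j hj
      have hjc : j.Coprime o := (Finset.mem_filter.1 hj).2
      have hcop : (p ^ n.factorization p).Coprime (n / p ^ n.factorization p) :=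
        (hp.out.coprime_iff_not_dvd.2 (Nat.not_dvd_ordCompl hp.out hn)).pow_left _
      obtain ⟨k, hk1, hk2⟩ := Nat.chineseRemainder hcop j 1
      have hpj : ¬ p ∣ j := fun h => hp.out.one_lt.ne'
        (Nat.eq_one_of_dvd_coprimes hjc h (dvd_pow_self p (by omega)))
      have hkc : k.Coprime n := by
        rw [← Nat.ordProj_mul_ordCompl_eq_self n p]
        refine Nat.Coprime.mul_right ?_ ?_
        · rw [Nat.Coprime, hk1.gcd_eq]
          exact ((hp.out.coprime_iff_not_dvd.2 hpj).pow_left _).symm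
        · rw [Nat.Coprime, hk2.gcd_eq, Nat.gcd_one_left]
      obtain ⟨l, hl'⟩ := hgen k hkc hk2
      have hfixl : ∀ (l : ℕ) (g : G), ((χ : IrrCharacter G) : G → ℂ) (g ^ k₀ ^ l) = ((χ : IrrCharacter G) : G → ℂ) g := by
        intro l
        induction l with
        | zero => simp
        | succ l ih => intro g; rw [pow_succ, pow_mul, hχfix, ih]
      have hfixk : ∀ g : G, ((χ : IrrCharacter G) : G → ℂ) (g ^ k) = ((χ : IrrCharacter G) : G → ℂ) g := fun g => by
        rw [pow_eq_pow_iff_modEq.2 (hl'.of_dvd (orderOf_dvd_natCard g)), hfixl]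
      have h := hA2 _ (hu i) (hu1 i hi) (χ : IrrCharacter G) k hk2 hfixk 1
      have hfin : IsOfFinOrder (zetaRoot o) :=
        isOfFinOrder_iff_pow_eq_one.2 ⟨o, pow_pos hp.out.pos _, (zetaRoot_prim (pow_ne_zero _ hp.out.ne_zero)).pow_eq_one⟩
      have hz : zetaRoot o ^ k = zetaRoot o ^ j := hfin.pow_eq_pow_iff_modEq.2 (by
          rw [← (zetaRoot_prim (pow_ne_zero _ hp.out.ne_zero : o ≠ 0)).eq_orderOf]
          exact hk1.of_dvd hoN)
      rw [orderOf_layer hwo hi.le, ← ho, one_mul, pow_one, hz] at h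
      exact h
    obtain ⟨z, hz⟩ := exists_int_sum_aeval hp.out (a - i) A'
    rw [← ho, Finset.sum_congr rfl hconst, Finset.sum_const, nsmul_eq_mul] at hz
    have hne : (coprimeResidues o).card ≠ 0 := Finset.card_ne_zero.2 ⟨1, Finset.mem_filter.2
      ⟨Finset.mem_range.2 (Nat.one_lt_pow (by omega) hp.out.one_lt), Nat.coprime_one_left _⟩⟩
    obtain ⟨m, hm⟩ := exists_int_of_mul_eq (isIntegral_aeval
      ((zetaRoot_prim (pow_ne_zero _ hp.out.ne_zero : o ≠ 0)).isIntegral (pow_pos hp.out.pos _)) A') hne hz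
    exact ⟨m, fun j hj => (hconst j hj).trans hm⟩
  let D : Cols p a e B := {
    toPreCols := D₀
    e_le := hep
    e_two := he2
    F := F
    F_card := hFcard
    z := fun i χ => if h : ∃ hi : i < a, χ ∈ F then (hfixed i h.1 χ h.2).choose else 0
    Fint := fun i hi j hj χ hχ ψ hψ => by
      show N ((p ^ i * j : ℕ) : ZMod (p ^ a)) χ ψ = _
      rw [(hlay i hi j hj χ ψ).2 (hu i) (hu1 i hi), dif_pos ⟨hi, hχ⟩, dif_pos ⟨hi, hψ⟩,
        (hfixed i hi χ hχ).choose_spec j hj, (hfixed i hi ψ hψ).choose_spec j hj]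
      simp }
  exact D.exists_good

end CfsgLib.CyclicExc
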