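import Cfsg.Agent.Blocks.CyclicExc.Data
import Cfsg.Agent.Blocks.KleinFour.Divisible

/-!
# The values on a subsection of rank one
-/

set_option autoImplicit false
set_option linter.unusedSectionVars false
set_option linter.style.haveILetI false

namespace CfsgLib.CyclicExc

open Cfsg CfsgLib CfsgLib.Blocks CfsgLib.CharBasics CfsgLib.PairAlg CfsgLib.NilBlock CfsgLib.Star CfsgLib.BrauerFeit
open scoped ComplexConjugate

attribute [local instance] CfsgLib.Blocks.residueField CfsgLib.Blocks.residue_charP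

universe u

variable {p : ℕ} [hp : Fact p.Prime] {M : Ideal AlgInt} {G : Type u} [Group G] [Fintype G]

noncomputable local instance instFintypeSubgroupCyclicExcSection (K : Subgroup G) : Fintype K := Fintype.ofFinite K

omit hp in
/-- The multiplicities of a translate in the centralizer are local. -/
theorem memLocalRing_inner_shift (hM : IsPModular p M) (u : G) [Fintype (IrrCharacter (cen u))] (χ : IrrCharacter G)
    (ξ : IrrCharacter (cen u)) : MemLocalRing M (classInner (shiftFun u (χ : G → ℂ)) (ξ : cen u → ℂ)) := by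
  classical
  set u' : cen u := ⟨u, Subgroup.mem_centralizer_singleton_iff.2 rfl⟩ with hu'
  have hz : u' ∈ Subgroup.center (cen u) :=
    Subgroup.mem_center_iff.2 fun y => Subtype.ext (Subgroup.mem_centralizer_singleton_iff.1 y.2)
  set ω : IrrCharacter (cen u) → ℂ := fun ρ => (ρ : cen u → ℂ) u' / (ρ : cen u → ℂ) 1 with hω
  have hmul : ∀ (ρ : IrrCharacter (cen u)) (y : cen u), (ρ : cen u → ℂ) (u' * y) = ω ρ * (ρ : cen u → ℂ) y :=
    fun ρ y => by
      simp only [hω]
      rw [div_mul_eq_mul_div, eq_div_iff (apply_one_ne_zero ρ.2), mul_comm, center_mul ρ.2 hz y]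
  have hroot : ω ξ ^ orderOf u' = 1 := by
    have h : ∀ j : ℕ, (ξ : cen u → ℂ) (u' ^ j) = ω ξ ^ j * (ξ : cen u → ℂ) 1 := by
      intro j
      induction j with
      | zero => simp
      | succ j ih => rw [pow_succ', hmul, ih]; ring
    have h1 := h (orderOf u')
    rw [pow_orderOf_eq_one] at h1
    exact (mul_eq_right₀ (apply_one_ne_zero ξ.2)).1 h1.symm
  have hint : IsIntegral ℤ (ω ξ) := IsIntegral.of_pow (orderOf_pos u') (by rw [hroot]; exact isIntegral_one)
  choose m hm using fun ρ : IrrCharacter (cen u) => classInner_characters_nat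
    (isCharacter_restrict (isCharacter_of_irr χ.2) (cen u)) (isCharacter_of_irr ρ.2)
  have hexp : shiftFun u (χ : G → ℂ) = ∑ ρ : IrrCharacter (cen u), ((m ρ : ℂ) * ω ρ) • (ρ : cen u → ℂ) := by
    funext y
    have h := congrFun (classFun_expand (isClassFunction (isCharacter_restrict (isCharacter_of_irr χ.2) (cen u))))
      (u' * y)
    simp only [Finset.sum_apply, Pi.smul_apply, smul_eq_mul] at h ⊢
    refine h.trans (Finset.sum_congr rfl fun ρ _ => ?_)
    rw [hm, hmul]
    ring
  rw [hexp, classInner_sum_left, Finset.sum_eq_single ξ]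
  · rw [classInner_smul_left, classInner_self ξ.2, mul_one]
    exact memLocalRing_mul hM (memLocalRing_natCast hM _) (memLocalRing_of_isIntegral hM hint)
  · intro ρ _ hne
    rw [classInner_smul_left, classInner_irr, if_neg hne, mul_zero]
  · simp

variable (hM : IsPModular p M) {B : Set (IrrCharacter G)} {P : Subgroup G}
  {c : Set (IrrCharacter (Subgroup.centralizer (P : Set G)))} (hmax : IsMaximalBrauerPair p M B P c)
  (hB : IsPBlock M B) (hPD : IsDefectGroup p M B P)
  (hc : IsInducedBlock M (Subgroup.centralizer (P : Set G)) c B) (hab : ∀ x ∈ P, ∀ y ∈ P, x * y = y * x)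
  (hfree : ∀ g ∈ stab P (bc hM P c), ∀ x ∈ P, x ≠ 1 → g * x * g⁻¹ = x → g ∈ Subgroup.centralizer (P : Set G))
include hM hmax hB hPD hc hab hfree

/-- The products with a member, as a class function. -/
theorem sum_NN_apply [Fintype (IrrCharacter G)] {u : G} (hu : u ∈ P) (hu1 : u ≠ 1) (χ₀ : IrrCharacter G) (x : G) :
    ∃ y : ℂ, ∑ ψ : IrrCharacter G, NN hM hmax u (χ₀ : G → ℂ) (ψ : G → ℂ) * (ψ : G → ℂ) x = (Nat.card P : ℂ) * y ∧
      MemLocalRing M y ∧
      MemLocalRing M ((Nat.card P : ℂ) * y / (Nat.card (Subgroup.centralizer ({x} : Set G)) : ℂ)) := by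
  classical
  haveI : Fintype (IrrCharacter (cen u)) := @Fintype.ofFinite _ finite_irrCharacter
  have hup := exists_orderOf_eq_of_mem hmax.1.1.1 hu
  set b := belb hM hmax u with hb
  have hbP := (belb_spec hM hmax hu).2.1
  have hl := blockRank_belb hM hmax hPD hc hu hu1 hB hab hfree
  obtain ⟨φ, d, nψ, hφ, hmult, hsq⟩ := rank_one_structure hM hbP hl
  rw [defect_belb hM hmax hB hPD hc hab hfree hu] at hsq
  have h1 : ¬ p ∣ orderOf (1 : cen u) := by rw [orderOf_one]; exact hp.out.not_dvd_one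
  set g := φ 1 with hg
  have hdeg : ∀ ξ ∈ b, (ξ : cen u → ℂ) 1 = (d ξ : ℂ) * g := fun ξ hξ => hmult ξ hξ 1 h1
  have hgc : conj g = g := by
    obtain ⟨ξ, hξ⟩ := IsPBlock.nonempty hM hbP
    have h := hdeg ξ hξ
    rw [apply_one (isCharacter_of_irr ξ.2)] at h
    have hd0 : (d ξ : ℂ) ≠ 0 := fun h0 => (Nat.cast_ne_zero.2 (charDegree_pos ξ.2).ne') (by rw [h, h0, zero_mul])
    rw [show g = (charDegree (ξ : cen u → ℂ) : ℂ) / d ξ by rw [h]; field_simp, map_div₀, Complex.conj_natCast,
      Complex.conj_natCast]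
  have hker : ∀ z, blockKernel b z 1 = g * ∑ ξ ∈ Finset.univ.filter (· ∈ b), (d ξ : ℂ) * (ξ : cen u → ℂ) z := by
    intro z
    rw [blockKernel_eq, Finset.mul_sum]
    refine Finset.sum_congr rfl fun ξ hξ => ?_
    rw [hdeg ξ (Finset.mem_filter.1 hξ).2, map_mul, Complex.conj_natCast, hgc]
    ring
  set Φ : cen u → ℂ := fun z => ∑ ξ ∈ Finset.univ.filter (· ∈ b), (d ξ : ℂ) * (ξ : cen u → ℂ) z with hΦ
  have hκ := kernel_pos hM hmax hB hPD hc hab hfree hu
  have hΦreg : ∀ z : cen u, ¬ p ∣ orderOf z → Φ z = (Nat.card P : ℂ) * φ z := by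
    intro z hz
    rw [← hsq, Nat.cast_sum, Finset.sum_mul]
    show ∑ ξ ∈ Finset.univ.filter (· ∈ b), (d ξ : ℂ) * (ξ : cen u → ℂ) z = _
    rw [Finset.sum_filter]
    refine Finset.sum_congr rfl fun ξ _ => ?_
    split_ifs with hξ
    · rw [hmult ξ hξ z hz]; push_cast; ring
    · simp
  have hκ' : blockKernel b 1 1 = (Nat.card P : ℂ) * g ^ 2 := by
    rw [hker, show ∑ ξ ∈ Finset.univ.filter (· ∈ b), (d ξ : ℂ) * (ξ : cen u → ℂ) 1 = Φ 1 from rfl, hΦreg 1 h1]
    ring
  have hg0 : g ≠ 0 := fun h0 => hκ (by rw [← hb, hκ', h0]; ring)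
  set a₀ := ∑ ξ ∈ Finset.univ.filter (· ∈ b), classInner (shiftFun u (χ₀ : G → ℂ)) (ξ : cen u → ℂ) * (d ξ : ℂ) with ha₀
  have hDD : DD hM hmax u u (χ₀ : G → ℂ) = g * a₀ := by
    rw [← secVal_one hM hmax u (isClassFunction (isCharacter_of_irr χ₀.2)), secVal, if_neg h1, ZStar.blockPart_apply,
      ← Finset.sum_filter, ha₀, Finset.mul_sum]
    refine Finset.sum_congr rfl fun ξ hξ => ?_
    rw [hdeg ξ (Finset.mem_filter.1 hξ).2]
    ring
  have hsum : ∑ ψ : IrrCharacter G, conj (DD hM hmax u u (ψ : G → ℂ)) * (ψ : G → ℂ) x =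
      (Nat.card (cen u) : ℂ)⁻¹ * ∑ z : cen u, (if p ∣ orderOf z then 0 else
        if IsConj x (u * (z : G)) then (Nat.card (Subgroup.centralizer ({x} : Set G)) : ℂ) * blockKernel b z 1 else 0) := by
    rw [Finset.sum_congr rfl fun ψ _ => by
      rw [← secVal_one hM hmax u (isClassFunction (isCharacter_of_irr ψ.2)), secVal_eq_kernel hM hbP _ h1, map_mul,
        map_inv₀, Complex.conj_natCast, map_sum, mul_assoc, Finset.sum_mul], ← Finset.mul_sum, Finset.sum_comm]
    congr 1
    refine Finset.sum_congr rfl fun z _ => ?_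
    split_ifs with hz hx
    · simp
    · rw [show (Nat.card (Subgroup.centralizer ({x} : Set G)) : ℂ) =
          ∑ ψ : IrrCharacter G, (ψ : G → ℂ) x * conj ((ψ : G → ℂ) (u * (z : G))) by rw [sum_col, if_pos hx],
        Finset.sum_mul]
      exact Finset.sum_congr rfl fun ψ _ => by rw [map_mul, conj_blockKernel, shiftFun]; ring
    · rw [← zero_mul (blockKernel b z 1), show (0 : ℂ) = ∑ ψ : IrrCharacter G, (ψ : G → ℂ) x *
          conj ((ψ : G → ℂ) (u * (z : G))) by rw [sum_col, if_neg hx], Finset.sum_mul]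
      exact Finset.sum_congr rfl fun ψ _ => by rw [map_mul, conj_blockKernel, shiftFun]; ring
  have hmain : (∑ ψ : IrrCharacter G, NN hM hmax u (χ₀ : G → ℂ) (ψ : G → ℂ) * (ψ : G → ℂ) x) * blockKernel b 1 1 =
      (Nat.card P : ℂ) * (g * a₀) * ∑ ψ : IrrCharacter G, conj (DD hM hmax u u (ψ : G → ℂ)) * (ψ : G → ℂ) x := by
    rw [Finset.sum_mul, Finset.mul_sum, ← hDD]
    refine Finset.sum_congr rfl fun ψ _ => ?_
    rw [mul_right_comm, NN_eq_DD hM hmax hB hPD hc hab hfree hu hu1]
    ring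
  have hloc : MemLocalRing M a₀ := memLocalRing_sum hM _ fun ξ _ =>
    memLocalRing_mul hM (memLocalRing_inner_shift hM u χ₀ ξ) (memLocalRing_natCast hM _)
  by_cases hex : ∃ z₁ : cen u, ¬ p ∣ orderOf z₁ ∧ IsConj x (u * (z₁ : G))
  · obtain ⟨z₁, hz₁, hx₁⟩ := hex
    have hC : Nat.card (Subgroup.centralizer ({x} : Set G)) =
        Nat.card (Subgroup.centralizer ({z₁} : Set (cen u))) := by
      rw [← card_centralizer_mul hup hp.out hz₁]
      obtain ⟨t, ht⟩ := isConj_iff.1 hx₁
      rw [← ht, ← MulAut.conj_apply t x]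
      refine Nat.card_congr ((MulAut.conj t).toEquiv.subtypeEquiv fun k => ?_)
      simp only [Subgroup.mem_centralizer_singleton_iff, MulEquiv.toEquiv_eq_coe, EquivLike.coe_coe]
      rw [← map_mul, ← map_mul, (MulAut.conj t).injective.eq_iff]
    have hcls : IsClassFunction (cen u) fun z => blockKernel b z 1 := fun w t => by
      simp only [blockKernel_eq]
      exact Finset.sum_congr rfl fun ξ _ => by rw [isClassFunction (isCharacter_of_irr ξ.2) w t]
    have hval : ∑ ψ : IrrCharacter G, conj (DD hM hmax u u (ψ : G → ℂ)) * (ψ : G → ℂ) x = g * Φ z₁ := by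
      rw [hsum, Finset.sum_congr rfl (g := fun z : cen u => if IsConj z₁ z then
        (Nat.card (Subgroup.centralizer ({z₁} : Set (cen u))) : ℂ) * blockKernel b z 1 else 0) fun z _ => ?_,
        sum_class_mul hcls z₁, inv_mul_cancel_left₀ (Nat.cast_ne_zero.2 Nat.card_pos.ne'), hker]
      by_cases hz : p ∣ orderOf z
      · rw [if_pos hz, if_neg]
        intro hc'
        obtain ⟨t, ht⟩ := isConj_iff.1 hc'
        refine hz₁ ?_
        rwa [← ht, ← MulAut.conj_apply t z₁, MulEquiv.orderOf_eq] at hz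
      · rw [if_neg hz, hC]
        exact if_congr ⟨fun hx => (isConj_mul_left_iff hup hp.out hz₁ hz).1 (hx₁.symm.trans hx),
          fun hc' => hx₁.trans ((isConj_mul_left_iff hup hp.out hz₁ hz).2 hc')⟩ rfl rfl
    refine ⟨a₀ * φ z₁, ?_, memLocalRing_mul hM hloc ?_, ?_⟩
    · refine mul_right_cancel₀ (hb ▸ hκ) ?_
      rw [hmain, hval, hκ', hΦreg z₁ hz₁]
      ring
    · rw [hφ z₁ hz₁]
      refine memLocalRing_sum hM _ fun ξ _ => ?_
      split_ifs
      · exact memLocalRing_mul hM (memLocalRing_intCast hM _)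
          (memLocalRing_of_isIntegral hM (isIntegral_apply (isCharacter_of_irr ξ.2) z₁))
      · exact memLocalRing_zero hM
    · rw [mul_left_comm, ← hΦreg z₁ hz₁, mul_div_assoc, hC]
      refine memLocalRing_mul hM hloc (KleinFour.div_centralizer_of_inner hM (f := Φ) (fun w t => ?_) (fun z hz => ?_)
        (fun ρ => ?_) z₁)
      · simp only [hΦ]
        exact Finset.sum_congr rfl fun ξ _ => by rw [isClassFunction (isCharacter_of_irr ξ.2) w t]
      · have h : g * Φ z = 0 := by
          rw [← hker, ← conj_blockKernel, blockKernel_eq_zero hM hbP h1 hz, map_zero]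
        exact (mul_eq_zero.1 h).resolve_left hg0
      · rw [show Φ = ∑ ξ ∈ Finset.univ.filter (· ∈ b), (d ξ : ℂ) • (ξ : cen u → ℂ) by
          funext z; simp [hΦ], classInner_sum_left]
        refine memLocalRing_sum hM _ fun ξ _ => ?_
        rw [classInner_smul_left, classInner_irr]
        split_ifs
        · rw [mul_one]; exact memLocalRing_natCast hM _
        · rw [mul_zero]; exact memLocalRing_zero hM
  · refine ⟨0, mul_right_cancel₀ (hb ▸ hκ) ?_, memLocalRing_zero hM, by rw [mul_zero, zero_div]; exact memLocalRing_zero hM⟩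
    rw [hmain, hsum, Finset.sum_eq_zero fun z _ => ?_, mul_zero, mul_zero, mul_zero, zero_mul]
    split_ifs with hz hx
    · rfl
    · exact absurd ⟨z, hz, hx⟩ hex
    · rfl

end CfsgLib.CyclicExc
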