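import Cfsg.Agent.Blocks.CyclicExc.Main
import Cfsg.Agent.Blocks.CyclicExc.Section

/-!
# What a perfect isometry needs of a block with cyclic defect group
-/

set_option autoImplicit false
set_option linter.unusedSectionVars false
set_option linter.style.haveILetI false

namespace CfsgLib.CyclicExc

open Cfsg CfsgLib CfsgLib.Blocks CfsgLib.CharBasics CfsgLib.PairAlg CfsgLib.NilBlock CfsgLib.Star CfsgLib.BrauerFeit Finset
open scoped ComplexConjugate

attribute [local instance] CfsgLib.Blocks.residueField CfsgLib.Blocks.residue_charP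

universe u

/-- The multipliers. -/
structure IsMult {n : ℕ} (e : ℕ) (R : Finset (ZMod n)) : Prop where
  card : R.card = e
  one : 1 ∈ R
  mul : ∀ r ∈ R, ∀ r' ∈ R, r * r' ∈ R
  free : ∀ r ∈ R, ∀ r' ∈ R, ∀ s, s ≠ 0 → r * s = r' * s → r = r'
  ne : ∀ r ∈ R, ∀ s, s ≠ 0 → r * s ≠ 0

theorem PreCols.isMult {p : ℕ} [Fact p.Prime] {a e : ℕ} {ι : Type*} [Fintype ι] [DecidableEq ι]
    (D : PreCols p a e ι) : IsMult e D.R :=
  ⟨D.R_card, D.R_one, D.R_mul, D.R_free, fun _ hr _ hs => D.R_unit hr hs⟩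

namespace IsMult

variable {n : ℕ} [NeZero n] {e : ℕ} {R : Finset (ZMod n)} (hR : IsMult e R)
include hR

theorem isUnit {r : ZMod n} (hr : r ∈ R) : IsUnit r := by
  have hinj : Function.Injective (fun s : ZMod n => r * s) := fun s t h => by
    by_contra hne
    exact hR.ne r hr _ (sub_ne_zero.2 hne) (by rw [mul_sub]; exact sub_eq_zero.2 h)
  obtain ⟨s, hs⟩ := (Finite.injective_iff_surjective.1 hinj) 1
  exact IsUnit.of_mul_eq_one _ hs

theorem orb_eq {x y : ZMod n} (hx : x ≠ 0) (hy : y ∈ R.image (· * x)) :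
    y ≠ 0 ∧ R.image (· * y) = R.image (· * x) := by
  obtain ⟨r, hr, rfl⟩ := mem_image.1 hy
  have hne := hR.ne r hr x hx
  refine ⟨hne, eq_of_subset_of_card_le (fun w hw => ?_) ?_⟩
  · obtain ⟨r', hr', rfl⟩ := mem_image.1 hw
    exact mem_image.2 ⟨r' * r, hR.mul _ hr' _ hr, mul_assoc _ _ _⟩
  · rw [card_image_of_injOn fun r hr r' hr' h => hR.free r hr r' hr' _ hx h,
      card_image_of_injOn fun r hr r' hr' h => hR.free r hr r' hr' _ hne h]

theorem self_mem (x : ZMod n) : x ∈ R.image (· * x) := mem_image.2 ⟨1, hR.one, one_mul x⟩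

theorem mem_orb {O : Orb R} {t : ZMod n} (ht : t ∈ O.1) : t ≠ 0 ∧ R.image (· * t) = O.1 := by
  obtain ⟨x, hx, hO⟩ := mem_image.1 O.2
  rw [← hO] at ht
  exact ⟨(hR.orb_eq (ne_of_mem_erase hx) ht).1, (hR.orb_eq (ne_of_mem_erase hx) ht).2.trans hO⟩

theorem sum_orb {A : Type*} [AddCommMonoid A] (F : ZMod n → A) :
    ∑ O : Orb R, ∑ t ∈ O.1, F t = ∑ t ∈ univ.erase 0, F t := by
  classical
  rw [← sum_fiberwise_of_maps_to (g := fun x => R.image (· * x))
    (t := (univ.erase (0 : ZMod n)).image fun x => R.image (· * x)) (fun t ht => mem_image_of_mem _ ht),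
    ← sum_coe_sort ((univ.erase (0 : ZMod n)).image fun x => R.image (· * x))]
  refine sum_congr rfl fun O _ => sum_congr (Finset.ext fun t => ?_) fun _ _ => rfl
  simp only [mem_filter, mem_erase, mem_univ, and_true]
  exact ⟨fun h => hR.mem_orb h, fun h => h.2 ▸ hR.self_mem t⟩

theorem sum_lam (s : ZMod n) [Decidable (s = 0)] (h : s ≠ 0) : ∑ O : Orb R, lam O s = -1 := by
  classical
  simp only [lam]
  rw [hR.sum_orb fun t => ee n (-(t * s))]
  have h0 : ∑ t, ee n (-(t * s)) = 0 := by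
    have h1 := AddChar.sum_mulShift (-s) (ee_primitive n)
    rw [if_neg (neg_ne_zero.2 h), Nat.cast_zero] at h1
    rw [← h1]
    exact sum_congr rfl fun t _ => by rw [mul_neg]
  rw [← sum_erase_add _ _ (mem_univ (0 : ZMod n))] at h0
  simp only [zero_mul, neg_zero, AddChar.map_zero_eq_one] at h0
  linear_combination h0

theorem sum_lam_mul (s s' : ZMod n) :
    ∑ O : Orb R, lam O s * lam O s' = ∑ r ∈ R, ((if s + r * s' = 0 then (n : ℂ) else 0) - 1) := by
  classical
  have h1 : ∀ O : Orb R, lam O s * lam O s' = ∑ t ∈ O.1, ∑ r ∈ R, ee n (-(t * (s + r * s'))) := by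
    intro O
    rw [lam, sum_mul]
    refine sum_congr rfl fun t ht => ?_
    obtain ⟨ht0, hO⟩ := hR.mem_orb ht
    rw [lam, ← hO, sum_image fun r hr r' hr' h => hR.free r hr r' hr' t ht0 h, mul_sum]
    exact sum_congr rfl fun r _ => by
      rw [← AddChar.map_add_eq_mul]
      congr 1
      ring
  rw [sum_congr rfl fun O _ => h1 O, hR.sum_orb fun t => ∑ r ∈ R, ee n (-(t * (s + r * s'))), sum_comm]
  refine sum_congr rfl fun r _ => ?_
  have h0 : ∑ t, ee n (-(t * (s + r * s'))) = if s + r * s' = 0 then (n : ℂ) else 0 := by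
    have h := AddChar.sum_mulShift (-(s + r * s')) (ee_primitive n)
    simp only [ZMod.card, mul_neg, neg_eq_zero] at h
    rw [h]
    split_ifs <;> simp
  rw [← h0, ← sum_erase_add _ _ (mem_univ (0 : ZMod n))]
  simp

end IsMult

/-- The multipliers are determined by their number. -/
theorem IsMult.unique {p : ℕ} [hp : Fact p.Prime] {a e : ℕ} {R R' : Finset (ZMod (p ^ a))} (hR : IsMult e R)
    (hR' : IsMult e R') (hdvd : e ∣ p - 1) : R = R' := by
  classical
  by_cases hp2 : p = 2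
  · subst hp2
    have he : e = 1 := Nat.dvd_one.1 hdvd
    have h : ∀ {R : Finset (ZMod (2 ^ a))}, IsMult e R → R = {1} := fun {R} hR =>
      (eq_of_subset_of_card_le (singleton_subset_iff.2 hR.one) (by rw [hR.card, card_singleton, he])).symm
    rw [h hR, h hR']
  haveI := ZMod.isCyclic_units_of_prime_pow p hp.out hp2 a
  have key : ∀ {R : Finset (ZMod (p ^ a))}, IsMult e R →
      (univ.filter fun x : (ZMod (p ^ a))ˣ => (x : ZMod (p ^ a)) ∈ R) = univ.filter fun x => x ^ e = 1 := by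
    intro R hR
    set S := univ.filter fun x : (ZMod (p ^ a))ˣ => (x : ZMod (p ^ a)) ∈ R with hS
    have hcard : S.card = e := by
      rw [← hR.card]
      exact card_bij (fun (x : (ZMod (p ^ a))ˣ) _ => (x : ZMod (p ^ a))) (fun x hx => (mem_filter.1 hx).2)
        (fun x _ y _ h => Units.ext h)
        (fun r hr => ⟨(hR.isUnit hr).unit, mem_filter.2 ⟨mem_univ _, hr⟩, rfl⟩)
    let M' : Submonoid (ZMod (p ^ a))ˣ :=
      { carrier := {x | (x : ZMod (p ^ a)) ∈ R}
        one_mem' := hR.one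
        mul_mem' := fun {x y} hx hy => hR.mul _ hx _ hy }
    let H : Subgroup (ZMod (p ^ a))ˣ :=
      { M' with
        inv_mem' := fun {x} hx => by
          show x⁻¹ ∈ M'
          have h : x⁻¹ ∈ Submonoid.powers x := by
            rw [mem_powers_iff_mem_zpowers]
            exact Subgroup.inv_mem _ (Subgroup.mem_zpowers x)
          exact (Submonoid.powers_le.2 hx) h }
    have hH : Nat.card H = e := by
      rw [Nat.subtype_card S fun x => by simp [hS, H, M'], hcard]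
    refine eq_of_subset_of_card_le (fun x hx => ?_) ?_
    · refine mem_filter.2 ⟨mem_univ _, ?_⟩
      have h := pow_card_eq_one' (x := (⟨x, (mem_filter.1 hx).2⟩ : H))
      rw [hH] at h
      exact congrArg Subtype.val h
    · rw [hcard]
      refine IsCyclic.card_pow_eq_one_le (Nat.pos_of_ne_zero fun h => ?_)
      rw [h, Finset.card_eq_zero] at hcard
      have hmem : (1 : (ZMod (p ^ a))ˣ) ∈ S := mem_filter.2 ⟨mem_univ _, hR.one⟩
      rw [hcard] at hmem
      exact notMem_empty _ hmem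
  ext r
  constructor <;> intro hr
  · have h : (hR.isUnit hr).unit ∈ univ.filter fun x : (ZMod (p ^ a))ˣ => (x : ZMod (p ^ a)) ∈ R :=
      mem_filter.2 ⟨mem_univ _, hr⟩
    rw [key hR, ← key hR'] at h
    exact (mem_filter.1 h).2
  · have h : (hR'.isUnit hr).unit ∈ univ.filter fun x : (ZMod (p ^ a))ˣ => (x : ZMod (p ^ a)) ∈ R' :=
      mem_filter.2 ⟨mem_univ _, hr⟩
    rw [key hR', ← key hR] at h
    exact (mem_filter.1 h).2

/-- What is used of a block with cyclic defect group. -/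
structure Frame {p : ℕ} [Fact p.Prime] (M : Ideal AlgInt) {a : ℕ} (e : ℕ) (R : Finset (ZMod (p ^ a)))
    {G : Type u} [Group G] [Fintype G] [Fintype (IrrCharacter G)] (B : Set (IrrCharacter G)) where
  v : Orb R → IrrCharacter G → ℤ
  f : Orb R → IrrCharacter G
  ε : ℤ
  w : IrrCharacter G → ℤ
  mult : IsMult e R
  hε : ε = 1 ∨ ε = -1
  f_mem : ∀ O, f O ∈ B
  f_inj : Function.Injective f
  hw : ∀ χ ∈ B, (∀ O, χ ≠ f O) → w χ = 1 ∨ w χ = -1
  w_f : ∀ O, w (f O) = 0
  v_eq : ∀ O, ∀ χ ∈ B, ∀ [Decidable (χ = f O)], v O χ = w χ + ε * if χ = f O then 1 else 0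
  v_out : ∀ O χ, χ ∉ B → v O χ = 0
  card : Nat.card B = e + Fintype.card (Orb R)
  gram : ∀ O O', ∑ χ, v O χ * v O' χ = (if O = O' then 1 else 0) + (e : ℤ)
  regular : ∀ O (g : G), ¬ p ∣ orderOf g → ∑ χ : IrrCharacter G, (v O χ : ℂ) * (χ : G → ℂ) g = 0
  decomp : ∀ g : G, p ∣ orderOf g → ∃ c : ZMod (p ^ a) → ℂ, c 0 = 0 ∧ (∀ s, MemLocalRing M (c s)) ∧
    (∀ s, MemLocalRing M (((p ^ a : ℕ) : ℂ) * c s / (Nat.card (Subgroup.centralizer ({g} : Set G)) : ℂ))) ∧
    ∀ χ ∈ B, (χ : G → ℂ) g = ∑ s, c s * ∑ O, lam O s * (v O χ : ℂ)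

variable {p : ℕ} [hp : Fact p.Prime] {M : Ideal AlgInt} {G : Type u} [Group G] [Fintype G]
  [Fintype (IrrCharacter G)]

noncomputable local instance instFintypeSubgroupCyclicExcFrame (K : Subgroup G) : Fintype K := Fintype.ofFinite K

/-- A block with cyclic defect group has a frame. -/
theorem exists_frame (hM : IsPModular p M) {B : Set (IrrCharacter G)} (hB : IsPBlock M B) {P : Subgroup G}
    (hPD : IsDefectGroup p M B P) (hcyc : IsCyclic P) {a : ℕ} (ha : 1 ≤ a) (hP : Nat.card P = p ^ a)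
    {c : Set (IrrCharacter (Subgroup.centralizer (P : Set G)))}
    (hc : IsInducedBlock M (Subgroup.centralizer (P : Set G)) c B) {T₀ : Subgroup G}
    (hT₀ : ∀ g : G, g ∈ T₀ ↔ (g ∈ Subgroup.normalizer (P : Set G) ∧
      StabilizesBlock (Subgroup.centralizer (P : Set G)) c g)) {e : ℕ}
    (he : (Subgroup.centralizer (P : Set G)).relIndex T₀ = e) :
    e ∣ p - 1 ∧ ∃ R : Finset (ZMod (p ^ a)), Nonempty (Frame M e R B) := by
  classical
  haveI : Fintype B := Fintype.ofFinite _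
  have hP1 : P ≠ ⊥ := fun h => (Nat.one_lt_pow (by omega : a ≠ 0) hp.out.one_lt).ne'
    (by rw [← hP, h, Subgroup.card_bot])
  haveI hn : ((Subgroup.centralizer (P : Set G)).subgroupOf T₀).Normal :=
    Subgroup.normal_subgroupOf_of_le_normalizer fun u hu => le_normalizer_centralizer P ((hT₀ u).1 hu).1
  obtain ⟨-, hdvd, hfree₀⟩ := Cfsg.Agent.S4633.result p M hM B hB P hPD hP1 hcyc c hc T₀ hT₀
  have hl := CyclicRank.blockRank_eq_relIndex hM hB hPD hP1 hcyc hc hT₀
  rw [he] at hdvd hl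
  obtain ⟨g₀, hg₀⟩ := hcyc.exists_generator
  have hwP : Subgroup.zpowers (g₀ : G) = P := le_antisymm (Subgroup.zpowers_le.2 g₀.2) fun x hx => by
    obtain ⟨i, hi⟩ := Subgroup.mem_zpowers_iff.1 (hg₀ ⟨x, hx⟩)
    exact Subgroup.mem_zpowers_iff.2 ⟨i, congrArg Subtype.val hi⟩
  have hwo : orderOf (g₀ : G) = p ^ a := by
    rw [← hP]
    exact (Nat.card_zpowers _).symm.trans (by rw [hwP])
  have hab : ∀ x ∈ P, ∀ y ∈ P, x * y = y * x := fun x hx y hy => by
    letI := hcyc.commGroup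
    exact congrArg Subtype.val (mul_comm (⟨x, hx⟩ : P) ⟨y, hy⟩)
  have hmax := isMaximal_of_induced hM hPD hc
  have hTeq : T₀ = stab P (bc hM P c) := by
    ext g
    rw [hT₀]
    exact ⟨fun h => ⟨h.1, (stabilizesBlock_bc_iff hM hc.1 h.1).1 h.2⟩,
      fun h => ⟨h.1, (stabilizesBlock_bc_iff hM hc.1 h.1).2 h.2⟩⟩
  subst hTeq
  have hfree := hfree₀
  have hk := CyclicRankOne.card_eq_add hM hmax hB hPD hc hab hfree
  rw [hl, he, hP] at hk
  obtain ⟨D, hD, hDN, χ₀, hgood⟩ := exists_cols hM hmax hB hPD hc hab hfree ha hwo hwP he hdvd hl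
  obtain ⟨v, hJcard, hgram, hzero, hker, -, hfour⟩ := D.exists_vectors χ₀ hgood
  simp only [hD] at hker
  have he0 : (e : ℂ) ≠ 0 := Nat.cast_ne_zero.2 (by have := D.e_one; omega)
  have hcard : Fintype.card B = e + Fintype.card (Orb D.R) := by
    have e1 : ((p ^ a : ℕ) : ℂ) - 1 = (e : ℂ) * (Fintype.card (Orb D.R) : ℂ) := by
      have h := congrArg (Nat.cast : ℕ → ℂ) hJcard
      push_cast at h ⊢
      linear_combination -h
    rw [e1, mul_div_cancel_left₀ _ he0, Nat.card_eq_fintype_card] at hk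
    exact_mod_cast hk
  have hJ0 : 0 < Fintype.card (Orb D.R) := Nat.pos_of_ne_zero fun h0 => by
    rw [h0, mul_zero, zero_add] at hJcard
    exact (Nat.one_lt_pow (by omega : a ≠ 0) hp.out.one_lt).ne hJcard
  have h1 : ¬ p ∣ orderOf (1 : G) := by rw [orderOf_one]; exact hp.out.not_dvd_one
  have hreg : ∀ i (g : G), ¬ p ∣ orderOf g → comb (v i) g = 0 := fun i g hg => regular_vanish (v i) (hker i) hg
  have hdeg : ∀ i, ∑ x : B, v i x * (charDegree ((x : IrrCharacter G) : G → ℂ) : ℤ) = 0 := fun i => by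
    have h := hreg i 1 h1
    simp only [comb] at h
    rw [Finset.sum_congr rfl fun x _ => by rw [apply_one (isCharacter_of_irr (x : IrrCharacter G).2)]] at h
    exact_mod_cast h
  obtain ⟨f, ε, w, hf, hε, hw, hwf, hv⟩ := exists_exceptional v
    (fun x => Int.natCast_pos.2 (charDegree_pos (x : IrrCharacter G).2)) hcard hJ0 hgram hzero hdeg
  have hsumB : ∀ {A : Type} [AddCommMonoid A] (F : IrrCharacter G → A), (∀ χ, χ ∉ B → F χ = 0) →
      ∑ χ : IrrCharacter G, F χ = ∑ x : B, F x := fun F hF => by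
    rw [← Finset.sum_subtype B.toFinset (fun χ => Set.mem_toFinset) F]
    exact (Finset.sum_subset (Finset.subset_univ _) fun χ _ hχ => hF χ (by rwa [Set.mem_toFinset] at hχ)).symm
  refine ⟨hdvd, D.R, ⟨{
    v := fun O χ => if h : χ ∈ B then v O ⟨χ, h⟩ else 0
    f := fun O => f O
    ε := ε
    w := fun χ => if h : χ ∈ B then w ⟨χ, h⟩ else 0
    mult := D.isMult
    hε := hε
    f_mem := fun O => (f O).2
    f_inj := fun O O' h => hf (Subtype.ext h)
    hw := fun χ hχ hne => by rw [dif_pos hχ]; exact hw _ fun O h => hne O (congrArg Subtype.val h)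
    w_f := fun O => by rw [dif_pos (f O).2]; exact hwf O
    v_eq := fun O χ hχ _ => by
      rw [dif_pos hχ, dif_pos hχ, hv]
      exact congrArg (fun z : ℤ => w ⟨χ, hχ⟩ + ε * z) (if_congr Subtype.ext_iff rfl rfl)
    v_out := fun O χ hχ => dif_neg hχ
    card := by rw [Nat.card_eq_fintype_card, hcard]
    gram := fun O O' => by
      rw [hsumB _ fun χ hχ => by rw [dif_neg hχ, zero_mul], ← hgram O O']
      exact Finset.sum_congr rfl fun x _ => by rw [dif_pos x.2, dif_pos x.2]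
    regular := fun O g hg => by
      rw [hsumB _ fun χ hχ => by rw [dif_neg hχ, Int.cast_zero, zero_mul], ← hreg O g hg]
      exact Finset.sum_congr rfl fun x _ => by rw [dif_pos x.2]
    decomp := ?_ }⟩⟩
  intro g hg
  have hsec : ∀ s, s ≠ 0 → ∃ y : ℂ, ∑ ψ : B, D.N s χ₀ ψ * ((ψ : IrrCharacter G) : G → ℂ) g =
      ((p ^ a : ℕ) : ℂ) * y ∧ MemLocalRing M y ∧
      MemLocalRing M (((p ^ a : ℕ) : ℂ) * y / (Nat.card (Subgroup.centralizer ({g} : Set G)) : ℂ)) := by
    intro s hs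
    obtain ⟨y, hy, h2, h3⟩ := sum_NN_apply hM hmax hB hPD hc hab hfree (pw_mem hwP s) (pw_ne hwo hs)
      (χ₀ : IrrCharacter G) g
    rw [hP] at hy h3
    refine ⟨y, ?_, h2, h3⟩
    rw [← hy, hsumB _ fun ψ hψ => ?_]
    · exact Finset.sum_congr rfl fun ψ _ => by rw [hDN s hs]
    · have h := NN_eq_zero_of_notMem hM hmax hB hPD hc hab hfree (pw_mem hwP s) hψ (χ₀ : IrrCharacter G)
      have hconj : conj (NN hM hmax (pw g₀.1 s) (ψ : G → ℂ) ((χ₀ : IrrCharacter G) : G → ℂ)) =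
          NN hM hmax (pw g₀.1 s) ((χ₀ : IrrCharacter G) : G → ℂ) (ψ : G → ℂ) := by
        obtain ⟨A, hA, -⟩ := exists_deltaPoly hM hmax hB hPD hc hab hfree (pw_mem hwP s) (pw_ne hwo hs)
        have e1 := hA 1 (Nat.coprime_one_left _) ψ (χ₀ : IrrCharacter G)
        have e2 := hA 1 (Nat.coprime_one_left _) (χ₀ : IrrCharacter G) ψ
        rw [pow_one (pw _ s)] at e1 e2
        rw [e1, e2, map_mul, Complex.conj_conj, mul_comm]
      rw [← hconj, h, map_zero, zero_mul]
  choose y hy hy1 hy2 using hsec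
  have hinv : MemLocalRing M (e : ℂ)⁻¹ := memLocalRing_natCast_inv hM fun h => by
    have h1 := Nat.le_of_dvd (by have := D.e_one; omega) h
    have h2 := Nat.le_of_dvd (by have := hp.out.two_le; omega) hdvd
    have := hp.out.two_le
    omega
  refine ⟨fun s => if hs : s = 0 then 0 else (e : ℂ)⁻¹ * y s hs, dif_pos rfl, fun s => ?_, fun s => ?_, fun χ hχ => ?_⟩
  · beta_reduce
    by_cases hs : s = 0
    · rw [dif_pos hs]; exact memLocalRing_zero hM
    · rw [dif_neg hs]; exact memLocalRing_mul hM hinv (hy1 s hs)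
  · beta_reduce
    by_cases hs : s = 0
    · rw [dif_pos hs, mul_zero, zero_div]; exact memLocalRing_zero hM
    · rw [dif_neg hs, mul_left_comm, mul_div_assoc]; exact memLocalRing_mul hM hinv (hy2 s hs)
  -- the expansion by the projections
  have hrm : ∑ ψ : B, D.Rm ⟨χ, hχ⟩ ψ * ((ψ : IrrCharacter G) : G → ℂ) g = 0 := by
    simp only [hD]
    rw [← hsumB (fun ψ => classInner (pRegularPart p (χ : G → ℂ)) (ψ : G → ℂ) * (ψ : G → ℂ) g) fun ψ hψ => ?_]
    · have hcl : IsClassFunction G (pRegularPart p (χ : G → ℂ)) := fun x t => by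
        rw [pRegularPart_apply, pRegularPart_apply, ← MulAut.conj_apply t x, MulEquiv.orderOf_eq, MulAut.conj_apply,
          isClassFunction (isCharacter_of_irr χ.2) x t]
      have h := congrFun (classFun_expand hcl) g
      simp only [Finset.sum_apply, Pi.smul_apply, smul_eq_mul] at h
      rw [← h, pRegularPart_apply, if_pos hg]
    · have h0 : classInner (pRegularPart p (χ : G → ℂ)) (ψ : G → ℂ) = 0 := by
        rw [classInner_eq, mul_eq_zero]
        refine Or.inr ?_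
        have h := regSum_eq_regInt hM.1 (isCharacter_of_irr χ.2) (isCharacter_of_irr ψ.2)
        rw [regInt_eq_zero_of_notMem hM hB hχ hψ, Int.cast_zero, zero_mul, regSum] at h
        refine Eq.trans ?_ h
        exact Finset.sum_congr rfl fun x _ => by rw [pRegularPart_apply]; split_ifs <;> simp
      rw [h0, zero_mul]
  have hterm : ∀ s, (if hs : s = 0 then (0 : ℂ) else (e : ℂ)⁻¹ * y s hs) *
      ∑ O, lam O s * ((if h : χ ∈ B then v O ⟨χ, h⟩ else 0 : ℤ) : ℂ) =
      ∑ ψ : B, (((p ^ a : ℕ) : ℂ) * (e : ℂ))⁻¹ * D.N s ⟨χ, hχ⟩ ψ * ((ψ : IrrCharacter G) : G → ℂ) g := by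
    intro s
    by_cases hs : s = 0
    · simp [hs, D.N_zero]
    simp only [dif_pos hχ, dif_neg hs]
    rw [← hfour s hs ⟨χ, hχ⟩]
    have h2 : ∀ ψ, D.N s ⟨χ, hχ⟩ ψ = D.N s ⟨χ, hχ⟩ χ₀ * D.N s χ₀ ψ := fun ψ => by
      rw [D.rank1 s ⟨χ, hχ⟩ χ₀ χ₀ ψ, hgood s hs, mul_one]
    rw [Finset.sum_congr rfl (g := fun ψ : B => ((((p ^ a : ℕ) : ℂ) * (e : ℂ))⁻¹ * D.N s ⟨χ, hχ⟩ χ₀) *
      (D.N s χ₀ ψ * ((ψ : IrrCharacter G) : G → ℂ) g)) fun ψ _ => by rw [h2 ψ]; ring, ← Finset.mul_sum, hy s hs]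
    have : ((p ^ a : ℕ) : ℂ) ≠ 0 := Nat.cast_ne_zero.2 (pow_ne_zero _ hp.out.ne_zero)
    field_simp
  rw [Finset.sum_congr rfl fun s _ => hterm s, Finset.sum_comm]
  calc (χ : G → ℂ) g = ∑ ψ : B, (if (⟨χ, hχ⟩ : B) = ψ then (1 : ℂ) else 0) * ((ψ : IrrCharacter G) : G → ℂ) g := by simp
    _ = ∑ ψ : B, (D.Rm ⟨χ, hχ⟩ ψ * ((ψ : IrrCharacter G) : G → ℂ) g + ∑ s, (((p ^ a : ℕ) : ℂ) * (e : ℂ))⁻¹ *
          D.N s ⟨χ, hχ⟩ ψ * ((ψ : IrrCharacter G) : G → ℂ) g) := Finset.sum_congr rfl fun ψ _ => by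
        rw [D.delta, add_mul, Finset.mul_sum, Finset.sum_mul]
    _ = _ := by rw [Finset.sum_add_distrib, hrm, zero_add]

end CfsgLib.CyclicExc
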