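import Cfsg.Agent.Blocks.CyclicExc.Frame

/-!
# Perfect isometries between blocks with cyclic defect groups
-/

set_option autoImplicit false
set_option linter.unusedSectionVars false
set_option linter.style.haveILetI false

namespace CfsgLib.CyclicExc

open Cfsg CfsgLib CfsgLib.Blocks CfsgLib.CharBasics Finset
open scoped ComplexConjugate

universe u w

variable {p : ℕ} [hp : Fact p.Prime] {M : Ideal AlgInt} {a e : ℕ} {R : Finset (ZMod (p ^ a))}
  {G : Type u} [Group G] [Fintype G] [Fintype (IrrCharacter G)]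
  {H : Type w} [Group H] [Fintype H] [Fintype (IrrCharacter H)]
  {B : Set (IrrCharacter G)} {c : Set (IrrCharacter H)}

/-- The combination of the vectors at an index. -/
noncomputable def Frame.col (F : Frame M e R B) (s : ZMod (p ^ a)) (χ : IrrCharacter G) : ℂ :=
  ∑ O, lam O s * (F.v O χ : ℂ)

/-- The combinations at two indices multiply to a multiple of the defect. -/
theorem Frame.sum_col_mul (F : Frame M e R B) {s s' : ZMod (p ^ a)} (hs : s ≠ 0) (hs' : s' ≠ 0) :
    ∑ χ, F.col s χ * F.col s' χ =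
      ((p ^ a : ℕ) : ℂ) * ((R.filter fun r => s + r * s' = 0).card : ℂ) := by
  classical
  have h1 : ∀ O O', ∑ χ : IrrCharacter G, (F.v O χ : ℂ) * (F.v O' χ : ℂ) = (if O = O' then 1 else 0) + (e : ℂ) := by
    intro O O'
    have h := congrArg (fun z : ℤ => (z : ℂ)) (F.gram O O')
    push_cast at h
    exact h
  calc ∑ χ, F.col s χ * F.col s' χ
      = ∑ O, ∑ O', lam O s * lam O' s' * ∑ χ : IrrCharacter G, (F.v O χ : ℂ) * (F.v O' χ : ℂ) := by
        simp only [Frame.col, sum_mul_sum]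
        rw [sum_comm]
        refine sum_congr rfl fun O _ => ?_
        rw [sum_comm]
        refine sum_congr rfl fun O' _ => ?_
        rw [mul_sum]
        exact sum_congr rfl fun χ _ => by ring
    _ = ∑ O, lam O s * lam O s' + (∑ O : Orb R, lam O s) * (∑ O : Orb R, lam O s') * (e : ℂ) := by
        rw [sum_mul_sum, sum_mul, ← sum_add_distrib]
        refine sum_congr rfl fun O _ => ?_
        rw [sum_congr rfl fun O' _ => by rw [h1 O O', mul_add], sum_add_distrib, sum_mul]
        simp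
    _ = _ := by
        rw [F.mult.sum_lam_mul s s', F.mult.sum_lam s hs, F.mult.sum_lam s' hs', sum_sub_distrib, sum_ite, sum_const,
          sum_const_zero, add_zero, sum_const, nsmul_eq_mul, nsmul_eq_mul, F.mult.card]
        ring

/-- Blocks with the same multipliers are perfectly isometric. -/
theorem exists_perfect (hM : IsPModular p M) (FB : Frame M e R B) (Fc : Frame M e R c) :
    ∃ (I : IrrCharacter H → IrrCharacter G) (ε : IrrCharacter H → ℤ),
      IsPerfectIsometry p M c B I ε ∧ (∀ O, ε (Fc.f O) = FB.ε * Fc.ε) ∧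
        ∀ η ∈ c, (∀ O, η ≠ Fc.f O) → ε η = FB.w (I η) * Fc.w η ∧ I η ∈ B ∧ ∀ O, I η ≠ FB.f O := by
  classical
  -- the members that are not exceptional
  set XB := B.toFinset \ univ.image FB.f with hXB
  set Xc := c.toFinset \ univ.image Fc.f with hXc
  have hcXB : XB.card = e := by
    rw [hXB, card_sdiff_of_subset, Set.toFinset_card, ← Nat.card_eq_fintype_card, FB.card,
      card_image_of_injective _ FB.f_inj, card_univ, Nat.add_sub_cancel]
    exact fun χ hχ => by
      obtain ⟨O, -, rfl⟩ := mem_image.1 hχ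
      exact Set.mem_toFinset.2 (FB.f_mem O)
  have hcXc : Xc.card = e := by
    rw [hXc, card_sdiff_of_subset, Set.toFinset_card, ← Nat.card_eq_fintype_card, Fc.card,
      card_image_of_injective _ Fc.f_inj, card_univ, Nat.add_sub_cancel]
    exact fun χ hχ => by
      obtain ⟨O, -, rfl⟩ := mem_image.1 hχ
      exact Set.mem_toFinset.2 (Fc.f_mem O)
  let e₁ : Xc ≃ XB := Fintype.equivOfCardEq (by rw [Fintype.card_coe, Fintype.card_coe, hcXB, hcXc])
  obtain ⟨χd, hχd⟩ : ∃ χ, χ ∈ XB := card_pos.1 (by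
    rw [hcXB, ← FB.mult.card]
    exact card_pos.2 ⟨1, FB.mult.one⟩)
  let I : IrrCharacter H → IrrCharacter G := fun η =>
    if h : ∃ O, η = Fc.f O then FB.f h.choose else if h' : η ∈ Xc then (e₁ ⟨η, h'⟩ : IrrCharacter G) else χd
  let ε : IrrCharacter H → ℤ := fun η => if ∃ O, η = Fc.f O then FB.ε * Fc.ε else FB.w (I η) * Fc.w η
  have hIf : ∀ O, I (Fc.f O) = FB.f O := fun O => by
    have h : ∃ O', Fc.f O = Fc.f O' := ⟨O, rfl⟩
    simp only [I, dif_pos h]
    rw [← Fc.f_inj h.choose_spec]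
  have hεf : ∀ O, ε (Fc.f O) = FB.ε * Fc.ε := fun O => if_pos ⟨O, rfl⟩
  have hcase : ∀ η ∈ c, (∃ O, η = Fc.f O) ∨ ∃ h : η ∈ Xc, (∀ O, η ≠ Fc.f O) ∧ I η = (e₁ ⟨η, h⟩ : IrrCharacter G) ∧
      ε η = FB.w (I η) * Fc.w η := by
    intro η hη
    by_cases h : ∃ O, η = Fc.f O
    · exact Or.inl h
    · have h' : η ∈ Xc := mem_sdiff.2 ⟨Set.mem_toFinset.2 hη, fun h'' => by
        obtain ⟨O, -, hO⟩ := mem_image.1 h''
        exact h ⟨O, hO.symm⟩⟩
      refine Or.inr ⟨h', fun O hO => h ⟨O, hO⟩, by simp only [I, dif_neg h, dif_pos h'], ?_⟩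
      simp only [ε, if_neg h]
  have hX : ∀ χ : XB, (χ : IrrCharacter G) ∈ B ∧ ∀ O, (χ : IrrCharacter G) ≠ FB.f O := fun χ => by
    obtain ⟨h1, h2⟩ := mem_sdiff.1 χ.2
    exact ⟨Set.mem_toFinset.1 h1, fun O hO => h2 (mem_image.2 ⟨O, mem_univ _, hO.symm⟩)⟩
  have hmap : Set.MapsTo I c B := fun η hη => by
    rcases hcase η hη with ⟨O, rfl⟩ | ⟨h, -, hI, -⟩
    · rw [hIf]; exact FB.f_mem O
    · rw [hI]; exact (hX _).1
  have hbij : Set.BijOn I c B := by
    refine ⟨hmap, fun η hη η' hη' he => ?_, fun χ hχ => ?_⟩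
    · rcases hcase η hη with ⟨O, rfl⟩ | ⟨h, -, hI, -⟩ <;> rcases hcase η' hη' with ⟨O', rfl⟩ | ⟨h', -, hI', -⟩
      · rw [hIf, hIf] at he; rw [FB.f_inj he]
      · rw [hIf, hI'] at he; exact absurd he.symm ((hX _).2 O)
      · rw [hI, hIf] at he; exact absurd he ((hX _).2 O')
      · rw [hI, hI'] at he; exact congrArg Subtype.val (e₁.injective (Subtype.ext he))
    · by_cases h : ∃ O, χ = FB.f O
      · obtain ⟨O, rfl⟩ := h
        exact ⟨Fc.f O, Fc.f_mem O, hIf O⟩
      · have h' : χ ∈ XB := mem_sdiff.2 ⟨Set.mem_toFinset.2 hχ, fun h'' => by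
          obtain ⟨O, -, hO⟩ := mem_image.1 h''
          exact h ⟨O, hO.symm⟩⟩
        obtain ⟨η, hη⟩ := e₁.surjective ⟨χ, h'⟩
        have hηc : (η : IrrCharacter H) ∈ c := Set.mem_toFinset.1 (mem_sdiff.1 η.2).1
        refine ⟨η, hηc, ?_⟩
        rcases hcase _ hηc with ⟨O, hO⟩ | ⟨_, -, hI, -⟩
        · exact absurd (mem_image.2 ⟨O, mem_univ _, hO.symm⟩) (mem_sdiff.1 η.2).2
        · rw [hI]; exact congrArg Subtype.val hη
  have hsign : ∀ η ∈ c, ε η = 1 ∨ ε η = -1 := fun η hη => by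
    rcases hcase η hη with ⟨O, rfl⟩ | ⟨h, hne, hI, hε⟩
    · rw [hεf]; rcases FB.hε with h | h <;> rcases Fc.hε with h' | h' <;> simp [h, h']
    · rw [hε, hI]
      rcases FB.hw _ (hX (e₁ ⟨η, h⟩)).1 (hX (e₁ ⟨η, h⟩)).2 with h₁ | h₁ <;> rcases Fc.hw η hη hne with h₂ | h₂ <;> simp [h₁, h₂]
  have hv : ∀ η ∈ c, ∀ O, ε η * FB.v O (I η) = Fc.v O η := by
    intro η hη O
    rcases hcase η hη with ⟨O', rfl⟩ | ⟨h, hne, hI, hε⟩
    · rw [hεf, hIf, FB.v_eq O _ (FB.f_mem O'), Fc.v_eq O _ (Fc.f_mem O'), FB.w_f, Fc.w_f]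
      by_cases hO : O' = O
      · subst hO
        simp only [if_true]
        rcases FB.hε with h | h <;> simp [h]
      · rw [if_neg fun h => hO (FB.f_inj h), if_neg fun h => hO (Fc.f_inj h)]
        simp
    · rw [hε, FB.v_eq O _ (hmap hη), Fc.v_eq O _ hη, hI, if_neg ((hX (e₁ ⟨η, h⟩)).2 O), if_neg (hne O), mul_zero, mul_zero,
        add_zero, add_zero]
      rcases FB.hw _ (hX (e₁ ⟨η, h⟩)).1 (hX (e₁ ⟨η, h⟩)).2 with h₁ | h₁ <;> rw [h₁] <;> ring
  have hε2 : ∀ η ∈ c, (ε η : ℂ) * (ε η : ℂ) = 1 := fun η hη => by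
    rcases hsign η hη with h | h <;> simp [h]
  have hcol : ∀ η ∈ c, ∀ s, (ε η : ℂ) * FB.col s (I η) = Fc.col s η := fun η hη s => by
    simp only [Frame.col, mul_sum]
    refine sum_congr rfl fun O _ => ?_
    rw [← hv η hη O]
    push_cast
    ring
  set μ := signedBijectionKernel c I ε with hμ
  have hμe : ∀ (g : G) (h : H), μ g h = ∑ η ∈ c.toFinset, (ε η : ℂ) * (I η : G → ℂ) g * (η : H → ℂ) h := fun g h => by
    rw [hμ, signedBijectionKernel, finsum_mem_eq_toFinset_sum]
  have hsumc : ∀ F : IrrCharacter H → ℂ, (∀ η, η ∉ c → F η = 0) → ∑ η ∈ c.toFinset, F η = ∑ η, F η := fun F hF =>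
    sum_subset (subset_univ _) fun η _ hη => hF η (by rwa [Set.mem_toFinset] at hη)
  have hsumB : ∀ F : IrrCharacter G → ℂ, (∀ χ, χ ∉ B → F χ = 0) → ∑ η ∈ c.toFinset, F (I η) = ∑ χ, F χ := fun F hF => by
    rw [← sum_subset (s₁ := B.toFinset) (subset_univ _) fun χ _ hχ => hF χ (by rwa [Set.mem_toFinset] at hχ)]
    exact sum_bij (fun η _ => I η) (fun η hη => Set.mem_toFinset.2 (hmap (Set.mem_toFinset.1 hη)))
      (fun x hx y hy h => hbij.injOn (Set.mem_toFinset.1 hx) (Set.mem_toFinset.1 hy) h)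
      (fun χ hχ => by
        obtain ⟨η, hη, hI⟩ := hbij.surjOn (Set.mem_toFinset.1 hχ)
        exact ⟨η, Set.mem_toFinset.2 hη, hI⟩) fun _ _ => rfl
  have hcol0 : ∀ s η, η ∉ c → Fc.col s η = 0 := fun s η hη => sum_eq_zero fun O _ => by
    rw [Fc.v_out O η hη, Int.cast_zero, mul_zero]
  have hcolB0 : ∀ s χ, χ ∉ B → FB.col s χ = 0 := fun s χ hχ => sum_eq_zero fun O _ => by
    rw [FB.v_out O χ hχ, Int.cast_zero, mul_zero]
  have hregc : ∀ (s : ZMod (p ^ a)) (h : H), ¬ p ∣ orderOf h → ∑ η, Fc.col s η * (η : H → ℂ) h = 0 := fun s h hh => by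
    simp only [Frame.col, sum_mul]
    rw [sum_comm]
    refine sum_eq_zero fun O _ => ?_
    simp only [mul_assoc, ← mul_sum, Fc.regular O h hh, mul_zero]
  have hregB : ∀ (s : ZMod (p ^ a)) (g : G), ¬ p ∣ orderOf g → ∑ χ, FB.col s χ * (χ : G → ℂ) g = 0 := fun s g hg => by
    simp only [Frame.col, sum_mul]
    rw [sum_comm]
    refine sum_eq_zero fun O _ => ?_
    simp only [mul_assoc, ← mul_sum, FB.regular O g hg, mul_zero]
  have hmix1 : ∀ (g : G) (h : H), p ∣ orderOf g → ¬ p ∣ orderOf h → μ g h = 0 := by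
    intro g h hg hh
    obtain ⟨k, -, -, -, hval⟩ := FB.decomp g hg
    rw [hμe, sum_congr rfl (g := fun η => ∑ s, k s * (Fc.col s η * (η : H → ℂ) h)) fun η hη => ?_, sum_comm]
    · refine sum_eq_zero fun s _ => ?_
      rw [← mul_sum, hsumc _ fun η hη => by rw [hcol0 s η hη, zero_mul], hregc s h hh, mul_zero]
    rw [Set.mem_toFinset] at hη
    rw [hval _ (hmap hη), mul_sum, sum_mul]
    refine sum_congr rfl fun s _ => ?_
    rw [← hcol η hη s]
    simp only [Frame.col]
    ring
  have hmix2 : ∀ (g : G) (h : H), ¬ p ∣ orderOf g → p ∣ orderOf h → μ g h = 0 := by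
    intro g h hg hh
    obtain ⟨k, -, -, -, hval⟩ := Fc.decomp h hh
    rw [hμe, sum_congr rfl (g := fun η => ∑ s, k s * (FB.col s (I η) * (I η : G → ℂ) g)) fun η hη => ?_, sum_comm]
    · refine sum_eq_zero fun s _ => ?_
      rw [← mul_sum, hsumB (fun χ => FB.col s χ * (χ : G → ℂ) g) fun χ hχ => by rw [hcolB0 s χ hχ, zero_mul],
        hregB s g hg, mul_zero]
    rw [Set.mem_toFinset] at hη
    rw [hval η hη, mul_sum]
    refine sum_congr rfl fun s _ => ?_
    rw [show ∑ O, lam O s * (Fc.v O η : ℂ) = Fc.col s η from rfl, ← hcol η hη s]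
    linear_combination (k s * FB.col s (I η) * (I η : G → ℂ) g) * hε2 η hη
  refine ⟨I, ε, ⟨hbij, hsign, fun g h => ?_⟩, hεf, fun η hη hne => ?_⟩
  swap
  · rcases hcase η hη with ⟨O, hO⟩ | ⟨h, -, hI, hε⟩
    · exact absurd hO (hne O)
    · exact ⟨hε, hI ▸ (hX _).1, fun O => hI ▸ (hX _).2 O⟩
  rw [← hμ]
  by_cases hg : p ∣ orderOf g <;> by_cases hh : p ∣ orderOf h
  · obtain ⟨k, hk0, hk1, hk2, hval⟩ := FB.decomp g hg
    obtain ⟨l, hl0, hl1, hl2, hval'⟩ := Fc.decomp h hh
    have hexp : μ g h = ∑ s, ∑ s', ((p ^ a : ℕ) : ℂ) * ((R.filter fun r => s + r * s' = 0).card : ℂ) * k s * l s' := by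
      rw [hμe, sum_congr rfl (g := fun η => ∑ s, ∑ s', k s * l s' * (Fc.col s η * Fc.col s' η)) fun η hη => ?_,
        sum_comm]
      · refine sum_congr rfl fun s _ => ?_
        rw [sum_comm]
        refine sum_congr rfl fun s' _ => ?_
        rw [← mul_sum, hsumc _ fun η hη => by rw [hcol0 s η hη, zero_mul]]
        by_cases hs : s = 0
        · simp [hs, hk0]
        by_cases hs' : s' = 0
        · simp [hs', hl0]
        rw [Fc.sum_col_mul hs hs']
        ring
      rw [Set.mem_toFinset] at hη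
      rw [hval _ (hmap hη), hval' η hη, mul_assoc, sum_mul_sum, mul_sum]
      refine sum_congr rfl fun s _ => ?_
      rw [mul_sum]
      refine sum_congr rfl fun s' _ => ?_
      rw [← hcol η hη s]
      simp only [Frame.col]
      ring
    refine ⟨?_, ?_, Or.inl ⟨fun hr => absurd hg hr, fun hr => absurd hh hr⟩⟩
    · rw [hexp, sum_div]
      refine memLocalRing_sum hM _ fun s _ => ?_
      rw [sum_div]
      refine memLocalRing_sum hM _ fun s' _ => ?_
      rw [show ((p ^ a : ℕ) : ℂ) * ((R.filter fun r => s + r * s' = 0).card : ℂ) * k s * l s' /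
          (Nat.card (Subgroup.centralizer ({g} : Set G)) : ℂ) =
        ((R.filter fun r => s + r * s' = 0).card : ℂ) * l s' *
          (((p ^ a : ℕ) : ℂ) * k s / (Nat.card (Subgroup.centralizer ({g} : Set G)) : ℂ)) by ring]
      exact memLocalRing_mul hM (memLocalRing_mul hM (memLocalRing_natCast hM _) (hl1 s')) (hk2 s)
    · rw [hexp, sum_div]
      refine memLocalRing_sum hM _ fun s _ => ?_
      rw [sum_div]
      refine memLocalRing_sum hM _ fun s' _ => ?_
      rw [show ((p ^ a : ℕ) : ℂ) * ((R.filter fun r => s + r * s' = 0).card : ℂ) * k s * l s' /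
          (Nat.card (Subgroup.centralizer ({h} : Set H)) : ℂ) =
        ((R.filter fun r => s + r * s' = 0).card : ℂ) * k s *
          (((p ^ a : ℕ) : ℂ) * l s' / (Nat.card (Subgroup.centralizer ({h} : Set H)) : ℂ)) by ring]
      exact memLocalRing_mul hM (memLocalRing_mul hM (memLocalRing_natCast hM _) (hk1 s)) (hl2 s')
  · have h0 := hmix1 g h hg hh
    exact ⟨by rw [h0, zero_div]; exact memLocalRing_zero hM, by rw [h0, zero_div]; exact memLocalRing_zero hM, Or.inr h0⟩
  · have h0 := hmix2 g h hg hh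
    exact ⟨by rw [h0, zero_div]; exact memLocalRing_zero hM, by rw [h0, zero_div]; exact memLocalRing_zero hM, Or.inr h0⟩
  · refine ⟨?_, ?_, Or.inl ⟨fun _ => hh, fun _ => hg⟩⟩
    · refine KleinFour.div_centralizer_of_inner hM (f := fun x => μ x h) ?_ (fun z hz => hmix1 z h hz hh) (fun χ => ?_) g
      · intro x d
        simp only [hμe]
        exact sum_congr rfl fun η _ => by rw [isClassFunction (isCharacter_of_irr (I η).2) x d]
      · rw [show (fun x => μ x h) = ∑ η ∈ c.toFinset, ((ε η : ℂ) * (η : H → ℂ) h) • (I η : G → ℂ) by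
          funext x
          rw [hμe, Finset.sum_apply]
          exact sum_congr rfl fun η _ => by rw [Pi.smul_apply, smul_eq_mul]; ring, classInner_sum_left]
        refine memLocalRing_sum hM _ fun η _ => ?_
        rw [classInner_smul_left, classInner_irr]
        split_ifs
        · rw [mul_one]
          exact memLocalRing_mul hM (memLocalRing_intCast hM _)
            (memLocalRing_of_isIntegral hM (isIntegral_apply (isCharacter_of_irr η.2) h))
        · rw [mul_zero]; exact memLocalRing_zero hM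
    · refine KleinFour.div_centralizer_of_inner hM (f := fun x => μ g x) ?_ (fun z hz => hmix2 g z hg hz) (fun χ => ?_) h
      · intro x d
        simp only [hμe]
        exact sum_congr rfl fun η _ => by rw [isClassFunction (isCharacter_of_irr η.2) x d]
      · rw [show (fun x => μ g x) = ∑ η ∈ c.toFinset, ((ε η : ℂ) * (I η : G → ℂ) g) • (η : H → ℂ) by
          funext x
          rw [hμe, Finset.sum_apply]
          exact sum_congr rfl fun η _ => by rw [Pi.smul_apply, smul_eq_mul], classInner_sum_left]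
        refine memLocalRing_sum hM _ fun η _ => ?_
        rw [classInner_smul_left, classInner_irr]
        split_ifs
        · rw [mul_one]
          exact memLocalRing_mul hM (memLocalRing_intCast hM _)
            (memLocalRing_of_isIntegral hM (isIntegral_apply (isCharacter_of_irr (I η).2) g))
        · rw [mul_zero]; exact memLocalRing_zero hM

end CfsgLib.CyclicExc
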