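import Cfsg.Agent.Blocks.CyclicExc.Data
import Cfsg.Agent.Blocks.Transport
import Cfsg.Agent.Blocks.KleinFour.Partner
import Cfsg.Agent.S4633

/-!
# Exceptional and non-exceptional members of a block with cyclic defect group
-/

set_option autoImplicit false
set_option linter.unusedSectionVars false
set_option linter.style.haveILetI false

namespace CfsgLib.CyclicExc

open Cfsg CfsgLib CfsgLib.Blocks CfsgLib.CharBasics CfsgLib.PairAlg CfsgLib.BrauerFeit
open scoped ComplexConjugate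

attribute [local instance] CfsgLib.Blocks.residueField CfsgLib.Blocks.residue_charP

universe u

variable {p : ℕ} [hp : Fact p.Prime] {G : Type u} [Group G] [Fintype G] {B : Set (IrrCharacter G)} [Fintype B]

noncomputable local instance instFintypeSubgroupCyclicExcMain (K : Subgroup G) : Fintype K := Fintype.ofFinite K

/-- The combination of the members. -/
noncomputable def comb (u : B → ℤ) (g : G) : ℂ := ∑ χ : B, (u χ : ℂ) * ((χ : IrrCharacter G) : G → ℂ) g

theorem sum_regular_sq (u : B → ℤ) :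
    ∑ g : G, (if p ∣ orderOf g then 0 else comb u g * conj (comb u g)) =
      (Nat.card G : ℂ) * ∑ χ : B, (u χ : ℂ) * ∑ ψ : B,
        classInner (pRegularPart p ((χ : IrrCharacter G) : G → ℂ)) ((ψ : IrrCharacter G) : G → ℂ) * (u ψ : ℂ) := by
  have hG : (Nat.card G : ℂ) ≠ 0 := Nat.cast_ne_zero.2 Nat.card_pos.ne'
  rw [Finset.mul_sum]
  simp only [classInner_eq, Finset.mul_sum, Finset.sum_mul, comb, map_sum, map_mul, map_intCast]
  conv_rhs => rw [Finset.sum_congr rfl fun χ _ => Finset.sum_comm, Finset.sum_comm]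
  refine Finset.sum_congr rfl fun g _ => ?_
  simp only [pRegularPart_apply]
  split_ifs with hg
  · simp
  · rw [Finset.sum_comm]
    refine Finset.sum_congr rfl fun χ _ => Finset.sum_congr rfl fun ψ _ => ?_
    field_simp

theorem regular_vanish (u : B → ℤ)
    (h : ∀ χ : B, ∑ ψ : B,
      classInner (pRegularPart p ((χ : IrrCharacter G) : G → ℂ)) ((ψ : IrrCharacter G) : G → ℂ) * (u ψ : ℂ) = 0)
    {g : G} (hg : ¬ p ∣ orderOf g) : comb u g = 0 := by
  classical
  have h0 := sum_regular_sq (p := p) u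
  simp only [h, mul_zero, Finset.sum_const_zero] at h0
  rw [Finset.sum_congr rfl (g := fun g => (((if p ∣ orderOf g then 0 else Complex.normSq (comb u g)) : ℝ) : ℂ))
    fun g _ => by split_ifs <;> simp [Complex.mul_conj], ← Complex.ofReal_sum, Complex.ofReal_eq_zero] at h0
  have h1 := (Finset.sum_eq_zero_iff_of_nonneg fun g _ => by
    split_ifs
    exacts [le_rfl, Complex.normSq_nonneg _]).1 h0 g (Finset.mem_univ g)
  rw [if_neg hg] at h1
  exact Complex.normSq_eq_zero.1 h1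

theorem singular_vanish (u : B → ℤ)
    (h : ∀ χ : B, ∑ ψ : B,
      classInner (pRegularPart p ((χ : IrrCharacter G) : G → ℂ)) ((ψ : IrrCharacter G) : G → ℂ) * (u ψ : ℂ) = (u χ : ℂ))
    {g : G} (hg : p ∣ orderOf g) : comb u g = 0 := by
  classical
  haveI : Fintype (IrrCharacter G) := @Fintype.ofFinite _ finite_irrCharacter
  have h0 := sum_regular_sq (p := p) u
  simp only [h] at h0
  have hall : ∑ g : G, comb u g * conj (comb u g) = (Nat.card G : ℂ) * ∑ χ : B, (u χ : ℂ) * (u χ : ℂ) := by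
    simp only [comb, map_sum, map_mul, map_intCast, Finset.sum_mul, Finset.mul_sum]
    rw [Finset.sum_comm]
    refine Finset.sum_congr rfl fun χ _ => ?_
    rw [Finset.sum_comm, Finset.sum_eq_single χ]
    · rw [Finset.sum_congr rfl (g := fun g => ((u χ : ℂ) * u χ) *
        (((χ : IrrCharacter G) : G → ℂ) g * conj (((χ : IrrCharacter G) : G → ℂ) g))) fun g _ => by ring,
        ← Finset.mul_sum]
      have hs := classInner_self (χ : IrrCharacter G).2
      rw [classInner_eq, inv_mul_eq_one₀ (Nat.cast_ne_zero.2 Nat.card_pos.ne')] at hs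
      rw [← hs]
      ring
    · intro ψ _ hne
      rw [Finset.sum_congr rfl (g := fun g => ((u χ : ℂ) * u ψ) *
        (((ψ : IrrCharacter G) : G → ℂ) g * conj (((χ : IrrCharacter G) : G → ℂ) g))) fun g _ => by ring,
        ← Finset.mul_sum]
      have hs := classInner_irr (ψ : IrrCharacter G) (χ : IrrCharacter G)
      rw [if_neg fun he => hne (Subtype.ext he), classInner_eq, mul_eq_zero] at hs
      rw [hs.resolve_left (inv_ne_zero (Nat.cast_ne_zero.2 Nat.card_pos.ne')), mul_zero]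
    · simp
  have h2 : ∑ g : G, (((if p ∣ orderOf g then Complex.normSq (comb u g) else 0) : ℝ) : ℂ) = 0 := by
    rw [Finset.sum_congr rfl (g := fun g => comb u g * conj (comb u g) -
      (if p ∣ orderOf g then 0 else comb u g * conj (comb u g))) fun g _ => by split_ifs <;> simp [Complex.mul_conj],
      Finset.sum_sub_distrib, hall, h0, sub_self]
  rw [← Complex.ofReal_sum, Complex.ofReal_eq_zero] at h2
  have h1 := (Finset.sum_eq_zero_iff_of_nonneg fun g _ => by
    split_ifs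
    exacts [Complex.normSq_nonneg _, le_rfl]).1 h2 g (Finset.mem_univ g)
  rw [if_pos hg] at h1
  exact Complex.normSq_eq_zero.1 h1

/-- A combination vanishing at the singular elements has degree divisible by the full power of `p`. -/
theorem dvd_comb_one (u : B → ℤ) (h : ∀ g : G, p ∣ orderOf g → comb u g = 0) :
    (p : ℤ) ^ (Nat.card G).factorization p ∣ ∑ χ : B, u χ * (charDegree ((χ : IrrCharacter G) : G → ℂ) : ℤ) := by
  classical
  let S : Sylow p G := default
  have hS : Nat.card (S : Subgroup G) = p ^ (Nat.card G).factorization p := S.card_eq_multiplicity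
  choose m hm using fun χ : B => classInner_characters_nat
    (isCharacter_restrict (isCharacter_of_irr (χ : IrrCharacter G).2) (S : Subgroup G))
    (isCharacter_of_irr (CfsgLib.Clifford.isIrrCharacter_of_hom (1 : ↥(S : Subgroup G) →* ℂ)))
  refine ⟨∑ χ : B, u χ * m χ, ?_⟩
  have hsum : ∑ s : (S : Subgroup G), comb u (s : G) = comb u 1 := by
    refine (Finset.sum_eq_single (1 : (S : Subgroup G)) (fun s _ hs => h _ ?_) (by simp)).trans (by simp)
    obtain ⟨k, hk⟩ := IsPGroup.iff_orderOf.1 S.2 s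
    rw [Subgroup.orderOf_coe, hk]
    refine dvd_pow_self p fun hk0 => hs (orderOf_eq_one_iff.1 ?_)
    rw [hk, hk0, pow_zero]
  have hone : comb u 1 = ((∑ χ : B, u χ * (charDegree ((χ : IrrCharacter G) : G → ℂ) : ℤ) : ℤ) : ℂ) := by
    push_cast
    exact Finset.sum_congr rfl fun χ _ => by rw [apply_one (isCharacter_of_irr (χ : IrrCharacter G).2)]
  have hcast : ((∑ χ : B, u χ * (charDegree ((χ : IrrCharacter G) : G → ℂ) : ℤ) : ℤ) : ℂ) =
      (((p : ℤ) ^ (Nat.card G).factorization p * ∑ χ : B, u χ * m χ : ℤ) : ℂ) := by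
    rw [← hone, ← hsum]
    simp only [comb]
    rw [Finset.sum_comm]
    push_cast
    rw [Finset.mul_sum]
    refine Finset.sum_congr rfl fun χ _ => ?_
    have h' := hm χ
    rw [classInner_eq, hS, inv_mul_eq_iff_eq_mul₀ (Nat.cast_ne_zero.2 (pow_ne_zero _ hp.out.ne_zero))] at h'
    simp only [MonoidHom.one_apply, map_one, mul_one] at h'
    rw [← Finset.mul_sum, h']
    push_cast
    ring
  exact_mod_cast hcast

omit [Fintype G] [Fintype B] in
theorem factorization_eq_of_congr {N c c' d d' : ℤ} {D D' : ℕ} {n : ℕ} (hd : d = D) (hd' : d' = D') (hD : D ≠ 0)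
    (hD' : D' ≠ 0) (hN : N = (p : ℤ) ^ n) (hc : ¬ (p : ℤ) ∣ c) (hc' : ¬ (p : ℤ) ∣ c')
    (h : N ∣ c * d - c' * d') (hlt : D.factorization p < n) : D'.factorization p = D.factorization p := by
  subst hd hd' hN
  set v := D.factorization p with hv
  have hpz : Prime (p : ℤ) := Nat.prime_iff_prime_int.1 hp.out
  have key : ∀ k, k ≤ n → ((p : ℤ) ^ k ∣ (D : ℤ) ↔ (p : ℤ) ^ k ∣ (D' : ℤ)) := by
    intro k hk
    have hd := (pow_dvd_pow (p : ℤ) hk).trans h
    have h1 : (p : ℤ) ^ k ∣ c * D ↔ (p : ℤ) ^ k ∣ c' * D' := (dvd_iff_dvd_of_dvd_sub hd)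
    exact ⟨fun h2 => hpz.pow_dvd_of_dvd_mul_left k hc' (h1.1 (h2.mul_left c)),
      fun h2 => hpz.pow_dvd_of_dvd_mul_left k hc (h1.2 (h2.mul_left c'))⟩
  have e1 : ∀ (k m : ℕ), m ≠ 0 → ((p : ℤ) ^ k ∣ (m : ℤ) ↔ k ≤ m.factorization p) := fun k m hm => by
    rw [← Nat.cast_pow, Int.natCast_dvd_natCast, hp.out.pow_dvd_iff_le_factorization hm]
  have a1 := key v hlt.le
  have a2 := key (v + 1) hlt
  rw [e1 _ _ hD, e1 _ _ hD'] at a1 a2
  omega

variable {M : Ideal AlgInt}

/-- The degree exponents agree when the degrees agree up to units. -/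
theorem height_zero_of_congr (hM : IsPModular p M) (hB : IsPBlock M B) {P : Subgroup G}
    (hPD : IsDefectGroup p M B P) {a : ℕ} (ha : 1 ≤ a) (hP : Nat.card P = p ^ a)
    (h : ∀ χ ∈ B, ∀ ψ ∈ B, ∃ c c' : ℤ, ¬ (p : ℤ) ∣ c ∧ ¬ (p : ℤ) ∣ c' ∧
      (p : ℤ) ^ (Nat.card G).factorization p ∣
        c * (charDegree (χ : G → ℂ) : ℤ) - c' * (charDegree (ψ : G → ℂ) : ℤ)) :
    ∀ χ ∈ B, blockHeight p B (χ : G → ℂ) = 0 := by
  intro χ hχ
  obtain ⟨χ₁, hχ₁, -, hs⟩ := exists_min_degExp hM hB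
  have hdef := card_defectGroup hM hB hPD
  rw [hP, blockDefect_eq hs] at hdef
  have hlt : degExp p χ₁ < (Nat.card G).factorization p := by
    have := Nat.pow_right_injective hp.out.two_le hdef
    omega
  obtain ⟨c, c', hc, hc', hdvd⟩ := h χ₁ hχ₁ χ hχ
  rw [blockHeight_eq hs, Nat.sub_eq_zero_iff_le]
  exact (factorization_eq_of_congr (p := p) (n := (Nat.card G).factorization p) rfl rfl (charDegree_pos χ₁.2).ne'
    (charDegree_pos χ.2).ne' rfl hc hc' hdvd hlt).le

/-- The members of a block with cyclic defect group. -/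
theorem exceptional_members (hM : IsPModular p M) (hB : IsPBlock M B) {P : Subgroup G} (hPD : IsDefectGroup p M B P)
    (hcyc : IsCyclic P) {a : ℕ} (ha : 1 ≤ a) (hP : Nat.card P = p ^ a)
    {c : Set (IrrCharacter (Subgroup.centralizer (P : Set G)))}
    (hc : IsInducedBlock M (Subgroup.centralizer (P : Set G)) c B) {T₀ : Subgroup G}
    (hT₀ : ∀ g : G, g ∈ T₀ ↔ (g ∈ Subgroup.normalizer (P : Set G) ∧
      StabilizesBlock (Subgroup.centralizer (P : Set G)) c g)) {e : ℕ}
    (he : (Subgroup.centralizer (P : Set G)).relIndex T₀ = e) :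
    e ∣ p - 1 ∧ (∀ χ ∈ B, blockHeight p B (χ : G → ℂ) = 0) ∧
      ∃ X Y : Set (IrrCharacter G), B = X ∪ Y ∧ Disjoint X Y ∧ Nat.card X = e ∧ Nat.card Y = (p ^ a - 1) / e ∧
      (∀ ψ ∈ Y, ∀ ψ' ∈ Y, ∀ g : G, ¬ p ∣ orderOf g → (ψ : G → ℂ) g = (ψ' : G → ℂ) g) ∧
      ∃ (δ : IrrCharacter G → ℤ) (δ₀ : ℤ), (∀ χ ∈ X, δ χ = 1 ∨ δ χ = -1) ∧ (δ₀ = 1 ∨ δ₀ = -1) ∧
        (∀ ψ ∈ Y, ∀ g : G, ¬ p ∣ orderOf g →
          (δ₀ : ℂ) * (ψ : G → ℂ) g + ∑ᶠ χ ∈ X, (δ χ : ℂ) * (χ : G → ℂ) g = 0) ∧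
        (∀ χ ∈ X, ∀ χ' ∈ X, δ χ * (charDegree (χ : G → ℂ) : ℤ) ≡
          δ χ' * (charDegree (χ' : G → ℂ) : ℤ) [ZMOD (p : ℤ) ^ a]) ∧
        (∀ ψ ∈ Y, ∀ χ ∈ X, (charDegree (ψ : G → ℂ) : ℤ) ≡
          -((e : ℤ) * δ₀ * δ χ * (charDegree (χ : G → ℂ) : ℤ)) [ZMOD (p : ℤ) ^ a]) := by
  classical
  haveI : Fintype (IrrCharacter G) := @Fintype.ofFinite _ finite_irrCharacter
  have hP1 : P ≠ ⊥ := fun h => (Nat.one_lt_pow (by omega : a ≠ 0) hp.out.one_lt).ne'
    (by rw [← hP, h, Subgroup.card_bot])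
  haveI hn : ((Subgroup.centralizer (P : Set G)).subgroupOf T₀).Normal :=
    Subgroup.normal_subgroupOf_of_le_normalizer fun u hu => le_normalizer_centralizer P ((hT₀ u).1 hu).1
  obtain ⟨-, hdvd, hfree₀⟩ := Cfsg.Agent.S4633.result p M hM B hB P hPD hP1 hcyc c hc T₀ hT₀
  have hl := CyclicRank.blockRank_eq_relIndex hM hB hPD hP1 hcyc hc hT₀
  rw [he] at hdvd hl
  obtain ⟨g₀, hg₀⟩ := hcyc.exists_generator
  have hwP : Subgroup.zpowers (g₀ : G) = P := le_antisymm (Subgroup.zpowers_le.2 g₀.2) fun x hx => by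
    obtain ⟨i, hi⟩ := Subgroup.mem_zpowers_iff.1 (hg₀ ⟨x, hx⟩)
    exact Subgroup.mem_zpowers_iff.2 ⟨i, congrArg Subtype.val hi⟩
  have hwo : orderOf (g₀ : G) = p ^ a := by
    rw [← hP]
    exact (Nat.card_zpowers _).symm.trans (by rw [hwP])
  have hab : ∀ x ∈ P, ∀ y ∈ P, x * y = y * x := fun x hx y hy => by
    letI := hcyc.commGroup
    exact congrArg Subtype.val (mul_comm (⟨x, hx⟩ : P) ⟨y, hy⟩)
  have hmax := isMaximal_of_induced hM hPD hc
  have hTeq : T₀ = stab P (bc hM P c) := by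
    ext g
    rw [hT₀]
    exact ⟨fun h => ⟨h.1, (stabilizesBlock_bc_iff hM hc.1 h.1).1 h.2⟩,
      fun h => ⟨h.1, (stabilizesBlock_bc_iff hM hc.1 h.1).2 h.2⟩⟩
  subst hTeq
  have hfree := hfree₀
  have he0 : 1 ≤ e := Nat.one_le_iff_ne_zero.2 (he ▸ Subgroup.index_ne_zero_of_finite
    (H := (Subgroup.centralizer (P : Set G)).subgroupOf (stab P (bc hM P c))))
  have hk := CyclicRankOne.card_eq_add hM hmax hB hPD hc hab hfree
  rw [hl, he, hP] at hk
  have hpa := Nat.one_le_pow a p hp.out.pos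
  have hN : a ≤ (Nat.card G).factorization p :=
    (hp.out.pow_dvd_iff_le_factorization Nat.card_pos.ne').1 (hP ▸ Subgroup.card_subgroup_dvd_card P)
  refine ⟨hdvd, ?_⟩
  obtain he1 | he2 : e = 1 ∨ 2 ≤ e := by omega
  · -- one member up to the regular values
    subst he1
    have hcard : Nat.card B = p ^ a := by
      have : (Nat.card B : ℂ) = ((p ^ a : ℕ) : ℂ) := by rw [hk]; push_cast; ring
      exact_mod_cast this
    obtain ⟨φ, d, -, -, hmult, hsq⟩ := rank_one_structure hM hB hl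
    rw [← card_defectGroup hM hB hPD, hP, ← Finset.sum_filter] at hsq
    have h1 : ¬ p ∣ orderOf (1 : G) := by rw [orderOf_one]; exact hp.out.not_dvd_one
    have hd0 : ∀ χ ∈ B, d χ ≠ 0 := fun χ hχ h0 => apply_one_ne_zero χ.2 (by rw [hmult χ hχ 1 h1, h0, Nat.cast_zero, zero_mul])
    have hcB : (Finset.univ.filter (· ∈ B)).card = p ^ a := by
      rw [← hcard, Nat.card_eq_fintype_card, ← Fintype.card_subtype]
    have hone : ∀ χ ∈ B, d χ = 1 := by
      intro χ hχ
      by_contra hne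
      have hlt : ∑ ψ ∈ Finset.univ.filter (· ∈ B), 1 < ∑ ψ ∈ Finset.univ.filter (· ∈ B), d ψ ^ 2 := by
        refine Finset.sum_lt_sum (fun ψ hψ => Nat.one_le_pow _ _ (Nat.pos_of_ne_zero (hd0 ψ (Finset.mem_filter.1 hψ).2)))
          ⟨χ, Finset.mem_filter.2 ⟨Finset.mem_univ _, hχ⟩, Nat.one_lt_pow two_ne_zero (by have := hd0 χ hχ; omega)⟩
      rw [Finset.sum_const, smul_eq_mul, mul_one, hcB, hsq] at hlt
      omega
    have heq : ∀ χ ∈ B, ∀ ψ ∈ B, ∀ g : G, ¬ p ∣ orderOf g → (χ : G → ℂ) g = (ψ : G → ℂ) g := fun χ hχ ψ hψ g hg => by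
      rw [hmult χ hχ g hg, hmult ψ hψ g hg, hone χ hχ, hone ψ hψ]
    have hdeg : ∀ χ ∈ B, ∀ ψ ∈ B, (charDegree (χ : G → ℂ) : ℤ) = (charDegree (ψ : G → ℂ) : ℤ) := fun χ hχ ψ hψ => by
      have h := heq χ hχ ψ hψ 1 h1
      rw [apply_one (isCharacter_of_irr χ.2), apply_one (isCharacter_of_irr ψ.2)] at h
      exact_mod_cast h
    obtain ⟨χ₀, hχ₀⟩ := IsPBlock.nonempty hM hB
    refine ⟨height_zero_of_congr hM hB hPD ha hP fun χ hχ ψ hψ => ⟨1, 1, ?_, ?_, ?_⟩,
      {χ₀}, B \ {χ₀}, (Set.union_sdiff_cancel (Set.singleton_subset_iff.2 hχ₀)).symm,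
      disjoint_sdiff_self_right, ?_, ?_, fun ψ hψ ψ' hψ' => heq ψ hψ.1 ψ' hψ'.1, fun _ => -1, 1,
      fun _ _ => Or.inr rfl, Or.inl rfl, fun ψ hψ g hg => ?_, fun χ hχ χ' hχ' => ?_, fun ψ hψ χ hχ => ?_⟩
    · exact fun h => hp.out.not_dvd_one (by exact_mod_cast h)
    · exact fun h => hp.out.not_dvd_one (by exact_mod_cast h)
    · rw [hdeg χ hχ ψ hψ, sub_self]; exact dvd_zero _
    · simp
    · rw [Nat.card_coe_set_eq, Set.ncard_sdiff_singleton_of_mem hχ₀, ← Nat.card_coe_set_eq, hcard, Nat.div_one]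
    · rw [finsum_mem_singleton, heq ψ hψ.1 χ₀ hχ₀ g hg]; push_cast; ring
    · rw [Set.mem_singleton_iff.1 hχ, Set.mem_singleton_iff.1 hχ']
    · rw [Set.mem_singleton_iff.1 hχ, hdeg ψ hψ.1 χ₀ hχ₀]; simp
  · have hep : e ≤ p - 1 := Nat.le_of_dvd (by have := hp.out.two_le; omega) hdvd
    obtain ⟨D, hD, -, χ₀', hgood⟩ := exists_cols hM hmax hB hPD hc hab hfree ha hwo hwP he hdvd hl
    obtain ⟨v, hJcard, hgram, hzero, hker, hfix, -⟩ := D.exists_vectors χ₀' hgood
    simp only [hD] at hker hfix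
    have hcard : Fintype.card B = e + Fintype.card (Orb D.R) := by
      have e1 : ((p ^ a : ℕ) : ℂ) - 1 = (e : ℂ) * (Fintype.card (Orb D.R) : ℂ) := by
        have h := congrArg (Nat.cast : ℕ → ℂ) hJcard
        push_cast at h ⊢
        linear_combination -h
      rw [e1, mul_div_cancel_left₀ _ (Nat.cast_ne_zero.2 (by omega : e ≠ 0)), Nat.card_eq_fintype_card] at hk
      exact_mod_cast hk
    have hJ0 : 0 < Fintype.card (Orb D.R) := Nat.pos_of_ne_zero fun h0 => by
      rw [h0, mul_zero, zero_add] at hJcard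
      exact (Nat.one_lt_pow (by omega : a ≠ 0) hp.out.one_lt).ne hJcard
    set d : B → ℤ := fun χ => (charDegree ((χ : IrrCharacter G) : G → ℂ) : ℤ) with hd
    have h1 : ¬ p ∣ orderOf (1 : G) := by rw [orderOf_one]; exact hp.out.not_dvd_one
    have hreg : ∀ i (g : G), ¬ p ∣ orderOf g → comb (v i) g = 0 := fun i g hg => regular_vanish (v i) (hker i) hg
    have hdeg : ∀ i, ∑ x, v i x * d x = 0 := fun i => by
      have h := hreg i 1 h1
      simp only [comb] at h
      rw [Finset.sum_congr rfl fun x _ => by rw [apply_one (isCharacter_of_irr (x : IrrCharacter G).2)]] at h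
      exact_mod_cast h
    obtain ⟨f, ε, w, hf, hε, hw, hwf, hv⟩ :=
      exists_exceptional v (fun x => Int.natCast_pos.2 (charDegree_pos (x : IrrCharacter G).2)) hcard hJ0 hgram hzero hdeg
    have hε2 : ε * ε = 1 := by rcases hε with rfl | rfl <;> rfl
    have hdiv : ∀ u : B → ℤ, (∀ i, ∑ ψ, v i ψ * u ψ = 0) →
        (p : ℤ) ^ (Nat.card G).factorization p ∣ ∑ χ, u χ * d χ := fun u hu =>
      dvd_comb_one u fun g hg => singular_vanish u (hfix u hu) hg
    have hvout : ∀ i x, (∀ j, x ≠ f j) → v i x = w x := fun i x hx => by rw [hv, if_neg (hx i), mul_zero, add_zero]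
    have hvf : ∀ i j, v i (f j) = if i = j then ε else 0 := fun i j => by
      rw [hv, hwf, zero_add]
      by_cases h : i = j
      · simp [h]
      · rw [if_neg fun he => h (hf he).symm, if_neg h, mul_zero]
    have hagree : ∀ i j (g : G), ¬ p ∣ orderOf g →
        (ε : ℂ) * ((f i : IrrCharacter G) : G → ℂ) g + ∑ x : B, (w x : ℂ) * ((x : IrrCharacter G) : G → ℂ) g = 0 ∧
          ((f i : IrrCharacter G) : G → ℂ) g = ((f j : IrrCharacter G) : G → ℂ) g := by
      intro i j g hg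
      have key : ∀ i, (ε : ℂ) * ((f i : IrrCharacter G) : G → ℂ) g +
          ∑ x : B, (w x : ℂ) * ((x : IrrCharacter G) : G → ℂ) g = 0 := fun i => by
        refine Eq.trans ?_ (hreg i g hg)
        simp only [comb, hv, Int.cast_add, add_mul, Finset.sum_add_distrib]
        rw [add_comm, add_right_inj, Finset.sum_eq_single (f i) (fun x _ hx => by simp [hx]) (by simp)]
        simp
      refine ⟨key i, mul_left_cancel₀ (Int.cast_ne_zero.2 (fun h0 => by simp [h0] at hε : ε ≠ 0)) ?_⟩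
      exact add_right_cancel ((key i).trans (key j).symm)
    have hdf : ∀ i j, d (f i) = d (f j) := fun i j => by
      have h := (hagree i j 1 h1).2
      rw [apply_one (isCharacter_of_irr (f i : IrrCharacter G).2), apply_one (isCharacter_of_irr (f j : IrrCharacter G).2)] at h
      simp only [hd]
      exact_mod_cast h
    have hww : ∀ x, (∀ j, x ≠ f j) → w x * w x = 1 := fun x hx => by rcases hw x hx with h | h <;> rw [h] <;> rfl
    have hXX : ∀ x y, (∀ j, x ≠ f j) → (∀ j, y ≠ f j) →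
        (p : ℤ) ^ (Nat.card G).factorization p ∣ w x * d x - w y * d y := by
      intro x y hx hy
      have h := hdiv (fun z => (if z = x then w x else 0) - (if z = y then w y else 0)) fun i => by
        simp only [mul_sub, Finset.sum_sub_distrib, mul_ite, mul_zero, Finset.sum_ite_eq', Finset.mem_univ, if_true]
        rw [hvout i x hx, hvout i y hy, hww x hx, hww y hy, sub_self]
      simpa [sub_mul, ite_mul, Finset.sum_sub_distrib] using h
    have hXY : ∀ x i, (∀ j, x ≠ f j) →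
        (p : ℤ) ^ (Nat.card G).factorization p ∣ w x * d x - ε * (Fintype.card (Orb D.R) : ℤ) * d (f i) := by
      intro x i hx
      have hs : ∀ g : B → ℤ, ∑ z, g z * (if z ∈ Finset.univ.image f then ε else 0) = ε * ∑ j, g (f j) := fun g => by
        simp only [mul_ite, mul_zero]
        rw [← Finset.sum_filter, Finset.filter_mem_eq_inter, Finset.univ_inter, Finset.sum_image fun _ _ _ _ h => hf h,
          Finset.mul_sum]
        exact Finset.sum_congr rfl fun j _ => mul_comm _ _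
      have h := hdiv (fun z => (if z = x then w x else 0) - (if z ∈ Finset.univ.image f then ε else 0)) fun i => by
        simp only [mul_sub, Finset.sum_sub_distrib]
        rw [hs]
        simp only [mul_ite, mul_zero, Finset.sum_ite_eq', Finset.mem_univ, if_true, hvf, Finset.sum_ite_eq, hvout i x hx,
          hww x hx, hε2, sub_self]
      simp only [sub_mul, Finset.sum_sub_distrib] at h
      rw [Finset.sum_congr rfl (g := fun z => d z * (if z ∈ Finset.univ.image f then ε else 0))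
        (s₁ := (Finset.univ : Finset B)) (f := fun z => (if z ∈ Finset.univ.image f then ε else 0) * d z)
        fun z _ => mul_comm _ _, hs, Finset.sum_congr rfl (g := fun _ => d (f i)) fun j _ => hdf j i, Finset.sum_const,
        nsmul_eq_mul, Finset.card_univ, ← mul_assoc] at h
      simpa [ite_mul] using h
    have hm : ¬ (p : ℤ) ∣ (Fintype.card (Orb D.R) : ℤ) := by
      intro h
      have h' : p ∣ e * Fintype.card (Orb D.R) := (Int.natCast_dvd_natCast.1 h).mul_left e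
      have : p ∣ e * Fintype.card (Orb D.R) + 1 := (dvd_pow_self p (by omega : a ≠ 0)).trans (dvd_of_eq hJcard.symm)
      exact hp.out.not_dvd_one ((Nat.dvd_add_right h').1 this)
    have hsign : ∀ s : ℤ, s = 1 ∨ s = -1 → ¬ (p : ℤ) ∣ s := by
      rintro s (rfl | rfl) h <;> [skip; rw [dvd_neg] at h] <;> exact hp.out.not_dvd_one (by exact_mod_cast h)
    -- a member that is not exceptional
    obtain ⟨x₀, hx₀⟩ : ∃ x, ∀ j, x ≠ f j := by
      by_contra hcon
      push Not at hcon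
      have := Fintype.card_le_of_surjective f fun x => (hcon x).imp fun _ h => h.symm
      omega
    have hunit : ∀ x : B, ∃ c : ℤ, ¬ (p : ℤ) ∣ c ∧ (p : ℤ) ^ (Nat.card G).factorization p ∣ c * d x - w x₀ * d x₀ := by
      intro x
      by_cases hx : ∀ j, x ≠ f j
      · exact ⟨w x, hsign _ (hw x hx), hXX x x₀ hx hx₀⟩
      · push Not at hx
        obtain ⟨i, rfl⟩ := hx
        refine ⟨ε * (Fintype.card (Orb D.R) : ℤ), fun h => (Int.Prime.dvd_mul' hp.out h).elim (hsign _ hε) hm, ?_⟩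
        rw [← neg_sub]
        exact dvd_neg.2 (hXY x₀ i hx₀)
    refine ⟨height_zero_of_congr hM hB hPD ha hP fun χ hχ ψ hψ => ?_, ?_⟩
    · obtain ⟨c₁, hc₁, h₁⟩ := hunit ⟨χ, hχ⟩
      obtain ⟨c₂, hc₂, h₂⟩ := hunit ⟨ψ, hψ⟩
      refine ⟨c₁, c₂, hc₁, hc₂, ?_⟩
      have := dvd_sub h₁ h₂
      simpa [hd] using this
    set Y : Set (IrrCharacter G) := Set.range (fun j => (f j : IrrCharacter G)) with hY
    have hYB : Y ⊆ B := by rintro _ ⟨j, rfl⟩; exact (f j).2
    have hX : ∀ χ : IrrCharacter G, χ ∈ B \ Y → ∃ h : χ ∈ B, ∀ j, (⟨χ, h⟩ : B) ≠ f j := fun χ hχ =>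
      ⟨hχ.1, fun j he => hχ.2 ⟨j, (congrArg Subtype.val he).symm⟩⟩
    have hcY : Nat.card Y = Fintype.card (Orb D.R) := by
      rw [hY, Nat.card_range_of_injective (f := fun j => (f j : IrrCharacter G)) fun i j h => hf (Subtype.ext h),
        Nat.card_eq_fintype_card]
    have hdiv' : (p ^ a - 1) / e = Fintype.card (Orb D.R) := by
      rw [show p ^ a - 1 = e * Fintype.card (Orb D.R) by omega, Nat.mul_div_cancel_left _ (by omega)]
    refine ⟨B \ Y, Y, (Set.sdiff_union_of_subset hYB).symm, disjoint_sdiff_self_left, ?_, hcY.trans hdiv'.symm, ?_,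
      fun χ => if h : χ ∈ B then w ⟨χ, h⟩ else 0, ε, fun χ hχ => ?_, hε, ?_, ?_, ?_⟩
    · rw [Nat.card_coe_set_eq, Set.ncard_sdiff hYB, ← Nat.card_coe_set_eq, ← Nat.card_coe_set_eq, hcY,
        Nat.card_eq_fintype_card, hcard, Nat.add_sub_cancel]
    · rintro _ ⟨i, rfl⟩ _ ⟨j, rfl⟩ g hg
      exact (hagree i j g hg).2
    · obtain ⟨h, hx⟩ := hX χ hχ
      simp only [dif_pos h]
      exact hw _ hx
    · rintro _ ⟨i, rfl⟩ g hg
      refine Eq.trans ?_ (hagree i i g hg).1
      congr 1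
      rw [finsum_mem_eq_toFinset_sum]
      refine Eq.trans ?_ ((Finset.sum_subtype B.toFinset (fun χ => Set.mem_toFinset)
        (fun χ : IrrCharacter G => ((if h : χ ∈ B then w ⟨χ, h⟩ else 0 : ℤ) : ℂ) * (χ : G → ℂ) g)).trans
          (Finset.sum_congr rfl fun x _ => by rw [dif_pos x.2]))
      refine Finset.sum_subset (by simp) fun χ hχ hχ' => ?_
      rw [Set.mem_toFinset] at hχ
      obtain ⟨j, hj⟩ : χ ∈ Y := by
        by_contra h
        exact hχ' (Set.mem_toFinset.2 ⟨hχ, h⟩)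
      simp only [dif_pos hχ]
      rw [show (⟨χ, hχ⟩ : B) = f j from Subtype.ext hj.symm, hwf, Int.cast_zero, zero_mul]
    · intro χ hχ χ' hχ'
      obtain ⟨h, hx⟩ := hX χ hχ
      obtain ⟨h', hx'⟩ := hX χ' hχ'
      simp only [dif_pos h, dif_pos h']
      exact ((Int.modEq_iff_dvd.2 (hXX _ _ hx' hx)).of_dvd (pow_dvd_pow _ hN))
    · rintro _ ⟨i, rfl⟩ χ hχ
      obtain ⟨h, hx⟩ := hX χ hχ
      simp only [dif_pos h]
      rw [Int.modEq_iff_dvd]
      have h2 := (pow_dvd_pow (p : ℤ) hN).trans (hXY _ i hx)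
      have hpow : (p : ℤ) ^ a = (e : ℤ) * (Fintype.card (Orb D.R) : ℤ) + 1 := by exact_mod_cast hJcard.symm
      have h3 := dvd_sub (Dvd.dvd.mul_left h2 (-((e : ℤ) * ε))) (dvd_mul_right ((p : ℤ) ^ a) (d (f i)))
      calc (p : ℤ) ^ a ∣ _ := h3
        _ = _ := by
          simp only [hd, hpow]
          linear_combination ((e : ℤ) * (Fintype.card (Orb D.R) : ℤ) * (charDegree ((f i : IrrCharacter G) : G → ℂ) : ℤ)) * hε2

end CfsgLib.CyclicExc
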